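import Mathlib
import Cfsg.Agent.H163.E6.Defs
import Cfsg.Agent.H952.F4.Axes
import Cfsg.Agent.H952.F4.Jord
import Cfsg.Agent.H952.F4.Scott
import Cfsg.Agent.H952.F4.Gen
import Cfsg.Agent.H952.F4.Eig
import Cfsg.Agent.H87.F4.Aux5

/-!
# S5927, case `n = 5`, `p = 3` or `p ≥ 7` (helper882)
-/

set_option autoImplicit false

namespace Cfsg.Agent.H882.E6Five

open Cfsg Cfsg.Lie Module
open Cfsg.Agent.H952.F4 (ev es matRep sh cr tf MaxAlt v0 v1 c3 z5)
open Cfsg.Agent.H952.F4.Spec (Ax ax mul_act act_inj mem_es)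

universe u

/-! ### the axes -/

section axes

variable {F V : Type*} [Field F] [AddCommGroup V] [Module F V]

/-- the sum of the five other axes -/
def sop (ρ : Representation F ↥(alternatingGroup (Fin 5)) V) : V →ₗ[F] V :=
  ρ c3 - ρ v1 + ρ c3 ∘ₗ ρ v1 - ρ c3 ∘ₗ ρ c3 ∘ₗ ρ v1 + ρ c3 ∘ₗ ρ c3

theorem sop_apply (ρ : Representation F ↥(alternatingGroup (Fin 5)) V) (x : V) :
    sop ρ x = ρ c3 x - ρ v1 x + ρ c3 (ρ v1 x) - ρ c3 (ρ c3 (ρ v1 x)) + ρ c3 (ρ c3 x) := rfl

/-- `sop` acts on the sign component of the dihedral group, with square 5 -/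
theorem sop_mem {ρ : Representation F ↥(alternatingGroup (Fin 5)) V} {x : V} (hz : ρ z5 x = x) (hv : ρ v0 x = -x) :
    ρ z5 (sop ρ x) = sop ρ x ∧ ρ v0 (sop ρ x) = -sop ρ x ∧ sop ρ (sop ρ x) = (5 : F) • x := by
  have A := ax hz hv
  simp only [sop_apply]
  generalize ρ v1 x = b at A ⊢
  generalize ρ c3 x = c at A ⊢
  generalize ρ c3 b = d at A ⊢
  generalize ρ c3 c = e at A ⊢
  generalize ρ c3 d = f at A ⊢
  refine ⟨?_, ?_, ?_⟩
  · rw [map_add, map_sub, map_add, map_sub, A.zc, A.zb, A.zd, A.zf, A.ze]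
    abel
  · rw [map_add, map_sub, map_add, map_sub, A.pc, A.pb, A.pd, A.pf, A.pe]
    abel
  · simp only [map_add, map_sub, map_neg, A.qb, A.qc, A.qd, A.qe, A.qf, A.ca, A.cb, A.cc, A.cd, A.ce, A.cf]
    module

/-- M1 for one vector -/
theorem axes (h2 : (2 : F) ≠ 0) (ρ : Representation F ↥(alternatingGroup (Fin 5)) V) {x : V} (hx0' : x ≠ 0)
    (hz : ρ z5 x = x) (hv : ρ v0 x = -x) {t : F} (hlam0 : sop ρ x = (2 * t - 1) • x) :
    ∃ X : Fin 3 → V, t * t = t + 1 ∧ (∀ i, X i ≠ 0) ∧ x = X 1 + t • X 2 ∧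
      (ρ v0 (X 0) = X 0 ∧ ρ v0 (X 1) = -X 1 ∧ ρ v0 (X 2) = -X 2) ∧
      (ρ v1 (X 0) = -X 0 ∧ ρ v1 (X 1) = X 1 ∧ ρ v1 (X 2) = -X 2) ∧
      (ρ c3 (X 0) = X 1 ∧ ρ c3 (X 1) = X 2 ∧ ρ c3 (X 2) = X 0) ∧
      (2 : F) • ρ z5 (X 0) = (t - 1) • X 0 - t • X 1 + X 2 ∧
      (2 : F) • ρ z5 (X 1) = t • X 0 + X 1 + (t - 1) • X 2 ∧
      (2 : F) • ρ z5 (X 2) = -X 0 + (t - 1) • X 1 + t • X 2 := by
  have A := ax hz hv
  obtain ⟨lam, hlt⟩ : ∃ lam : F, lam = 2 * t - 1 := ⟨_, rfl⟩
  rw [← hlt, sop_apply] at hlam0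
  generalize ρ v1 x = b at A hlam0
  generalize ρ c3 x = c at A hlam0
  generalize ρ c3 b = d at A hlam0
  generalize ρ c3 c = e at A hlam0
  generalize ρ c3 d = f at A hlam0
  have hlam : c - b + d - f + e = lam • x := hlam0
  have hlam' : -c - x - d + e - f = lam • b := by
    have h := congrArg (ρ v1) hlam
    rw [map_add, map_sub, map_add, map_sub, A.qc, A.qb, A.qd, A.qf, A.qe, map_smul, A.qa] at h
    rw [← h]
    abel
  have R1 : e - f = t • (x + b) := by
    have h : (2 : F) • (e - f) = (2 : F) • (t • (x + b)) := by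
      rw [smul_smul, show (2 : F) * t = lam + 1 by rw [hlt]; ring, add_smul, one_smul, smul_add, ← hlam, ← hlam']
      rw [two_smul]
      abel
    exact smul_right_injective V h2 h
  have R2 : c + d = (t - 1) • (x - b) := by
    have h : (2 : F) • (c + d) = (2 : F) • ((t - 1) • (x - b)) := by
      rw [smul_smul, show (2 : F) * (t - 1) = lam - 1 by rw [hlt]; ring, sub_smul, one_smul, smul_sub, ← hlam, ← hlam']
      rw [two_smul]
      abel
    exact smul_right_injective V h2 h
  have R3 : x - b = t • (c + d) := by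
    have h := congrArg (ρ c3) R1
    rwa [map_sub, map_smul, map_add, A.ce, A.cf, A.ca, A.cb] at h
  have R4 : c - d = t • (e + f) := by
    have h := congrArg (ρ c3) R3
    rwa [map_sub, map_smul, map_add, A.ca, A.cb, A.cc, A.cd] at h
  have hadd : x + b ≠ 0 := by
    intro h
    rw [h, smul_zero, sub_eq_zero] at R1
    have h3 := congrArg (ρ c3) R1
    rw [A.ce, A.cf] at h3
    rw [← h3, ← two_smul F] at h
    exact hx0' ((smul_eq_zero.1 h).resolve_left h2)
  have hsub : x - b ≠ 0 := by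
    intro h
    rw [h, smul_zero] at R2
    have h3 : ρ c3 (x + b) = ρ c3 0 := by rw [map_add, A.ca, A.cb, R2, map_zero]
    exact hadd (act_inj h3)
  have htt : t * t = t + 1 := by
    have h : (t * (t - 1) - 1) • (x - b) = 0 := by
      rw [sub_smul, one_smul, mul_smul, ← R2, ← R3, sub_self]
    have h3 := (smul_eq_zero.1 h).resolve_right hsub
    linear_combination h3
  have h22 : (2 : F) * (1 / 2) = 1 := by field_simp
  -- the vectors
  refine ⟨![(1 / 2 : F) • (e + f), (1 / 2 : F) • (x + b), (1 / 2 : F) • (c + d)], htt, ?_, ?_, ?_, ?_, ?_, ?_, ?_, ?_⟩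
  · have hh : (1 / 2 : F) ≠ 0 := by
      intro h
      rw [h, mul_zero] at h22
      exact zero_ne_one h22
    have hc : ρ c3 (x + b) = c + d := by rw [map_add, A.ca, A.cb]
    have he : ρ c3 (c + d) = e + f := by rw [map_add, A.cc, A.cd]
    have hcd : c + d ≠ 0 := by
      intro h
      rw [h] at hc
      exact hadd (act_inj (hc.trans (map_zero (ρ c3)).symm))
    have hef : e + f ≠ 0 := by
      intro h
      rw [h] at he
      exact hcd (act_inj (he.trans (map_zero (ρ c3)).symm))
    intro i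
    fin_cases i
    · exact smul_ne_zero hh hef
    · exact smul_ne_zero hh hadd
    · exact smul_ne_zero hh hcd
  · simp only [Matrix.cons_val_one, Matrix.cons_val]
    rw [smul_comm, ← R3, ← smul_add]
    rw [show x + b + (x - b) = (2 : F) • x by module, smul_smul, mul_comm, h22, one_smul]
  · simp only [Matrix.cons_val_zero, Matrix.cons_val_one, Matrix.cons_val]
    rw [map_smul, map_smul, map_smul, map_add, map_add, map_add, A.pe, A.pf, A.pa, A.pb, A.pc, A.pd]
    refine ⟨by rw [add_comm], by rw [← smul_neg, neg_add], by rw [← smul_neg, neg_add, add_comm]⟩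
  · simp only [Matrix.cons_val_zero, Matrix.cons_val_one, Matrix.cons_val]
    rw [map_smul, map_smul, map_smul, map_add, map_add, map_add, A.qe, A.qf, A.qa, A.qb, A.qc, A.qd]
    refine ⟨by rw [← smul_neg, neg_add, add_comm], by rw [add_comm], by rw [← smul_neg, neg_add]⟩
  · simp only [Matrix.cons_val_zero, Matrix.cons_val_one, Matrix.cons_val]
    rw [map_smul, map_smul, map_smul, map_add, map_add, map_add, A.ce, A.cf, A.ca, A.cb, A.cc, A.cd]
    exact ⟨rfl, rfl, rfl⟩
  all_goals
    have H0 : e + f = (2 : F) • ((1 / 2 : F) • (e + f)) := by rw [smul_smul, h22, one_smul]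
    have H1 : x + b = (2 : F) • ((1 / 2 : F) • (x + b)) := by rw [smul_smul, h22, one_smul]
    have H2 : c + d = (2 : F) • ((1 / 2 : F) • (c + d)) := by rw [smul_smul, h22, one_smul]
    simp only [Matrix.cons_val_zero, Matrix.cons_val_one, Matrix.cons_val]
    generalize (1 / 2 : F) • (e + f) = X0 at H0 ⊢
    generalize (1 / 2 : F) • (x + b) = X1 at H1 ⊢
    generalize (1 / 2 : F) • (c + d) = X2 at H2 ⊢
    rw [H1] at R1
    rw [H2] at R3
    rw [H0] at R4
    apply smul_right_injective V h2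
    show (2 : F) • _ = (2 : F) • _
    rw [← map_smul]
  · rw [← H0, map_add, A.ze, A.zf]
    linear_combination (norm := module) R4 + H2 - R1 - H0
  · rw [← H1, map_add, A.za, A.zb]
    linear_combination (norm := module) R3 + H1 + R4 - H2
  · rw [← H2, map_add, A.zc, A.zd]
    linear_combination (norm := module) R3 - H1 + R1 - H0

/-- `c3`, `z5` generate `A₅` -/
theorem closure_eq : Subgroup.closure {z5, c3} = ⊤ := by
  have hx : Equiv.Perm.sign (z5 : Equiv.Perm (Fin 5)) = 1 := Equiv.Perm.mem_alternatingGroup.1 z5.2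
  have hy : Equiv.Perm.sign (c3 : Equiv.Perm (Fin 5)) = 1 := Equiv.Perm.mem_alternatingGroup.1 c3.2
  rw [eq_top_iff]
  intro σ _
  have h1 : (σ : Equiv.Perm (Fin 5)) ∈ Subgroup.closure {(z5 : Equiv.Perm (Fin 5)), (c3 : Equiv.Perm (Fin 5))} := by
    refine H952.F4.Gen.mem_of_star (n := 3) _ ?_ ?_ σ.2
    · rw [Subgroup.closure_le]
      rintro z (rfl | rfl)
      · exact z5.2
      · exact c3.2
    · intro k hk
      have hW : ∀ k : Fin 5, k ≠ 0 → H952.F4.Gen.ev (z5 : Equiv.Perm (Fin 5)) (c3 : Equiv.Perm (Fin 5))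
          ((![[], [], [1, 3, 1, 1, 3], [0, 0, 2, 0, 2], [1, 1, 2]] : Fin 5 → List (Fin 4)) k) =
            Equiv.swap 0 1 * Equiv.swap 0 k := by decide +kernel
      rw [← hW k hk]
      exact H952.F4.Gen.ev_mem (Subgroup.subset_closure (by simp)) (Subgroup.subset_closure (by simp)) _
  have h2 : (Subgroup.closure {z5, c3}).map (alternatingGroup (Fin 5)).subtype =
      Subgroup.closure {(z5 : Equiv.Perm (Fin 5)), (c3 : Equiv.Perm (Fin 5))} := by
    rw [MonoidHom.map_closure, Set.image_pair]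
    rfl
  rw [← h2] at h1
  obtain ⟨τ, hτ, h3⟩ := h1
  rwa [← Subtype.ext h3]

/-- the submodule spanned by the three vectors -/
theorem span_stable (h2 : (2 : F) ≠ 0) {ρ : Representation F ↥(alternatingGroup (Fin 5)) V} {t : F} {X : Fin 3 → V}
    (hc : ρ c3 (X 0) = X 1 ∧ ρ c3 (X 1) = X 2 ∧ ρ c3 (X 2) = X 0)
    (hz0 : (2 : F) • ρ z5 (X 0) = (t - 1) • X 0 - t • X 1 + X 2)
    (hz1 : (2 : F) • ρ z5 (X 1) = t • X 0 + X 1 + (t - 1) • X 2)
    (hz2 : (2 : F) • ρ z5 (X 2) = -X 0 + (t - 1) • X 1 + t • X 2) (g : ↥(alternatingGroup (Fin 5))) :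
    ∀ w ∈ Submodule.span F (Set.range X), ρ g w ∈ Submodule.span F (Set.range X) := by
  have hX : ∀ i, X i ∈ Submodule.span F (Set.range X) := fun i => Submodule.subset_span ⟨i, rfl⟩
  have hstep : ∀ (k : ↥(alternatingGroup (Fin 5))), (∀ i, ρ k (X i) ∈ Submodule.span F (Set.range X)) →
      ∀ w ∈ Submodule.span F (Set.range X), ρ k w ∈ Submodule.span F (Set.range X) := by
    intro k hk w hw
    induction hw using Submodule.span_induction with
    | mem x hx =>
      obtain ⟨i, rfl⟩ := hx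
      exact hk i
    | zero => rw [map_zero]; exact Submodule.zero_mem _
    | add x y _ _ hx hy => rw [map_add]; exact Submodule.add_mem _ hx hy
    | smul a x _ hx => rw [map_smul]; exact Submodule.smul_mem _ _ hx
  have hhalf : ∀ {v : V}, (2 : F) • v ∈ Submodule.span F (Set.range X) → v ∈ Submodule.span F (Set.range X) :=
    fun {v} h => (Submodule.smul_mem_iff _ h2).1 h
  have hcc : ∀ i, ρ c3 (X i) ∈ Submodule.span F (Set.range X) := by
    intro i
    fin_cases i
    · exact hc.1 ▸ hX 1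
    · exact hc.2.1 ▸ hX 2
    · exact hc.2.2 ▸ hX 0
  have hzz : ∀ i, ρ z5 (X i) ∈ Submodule.span F (Set.range X) := by
    intro i
    apply hhalf
    fin_cases i
    · show (2 : F) • ρ z5 (X 0) ∈ _
      rw [hz0]
      exact Submodule.add_mem _ (Submodule.sub_mem _ (Submodule.smul_mem _ _ (hX 0)) (Submodule.smul_mem _ _ (hX 1)))
        (hX 2)
    · show (2 : F) • ρ z5 (X 1) ∈ _
      rw [hz1]
      exact Submodule.add_mem _ (Submodule.add_mem _ (Submodule.smul_mem _ _ (hX 0)) (hX 1))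
        (Submodule.smul_mem _ _ (hX 2))
    · show (2 : F) • ρ z5 (X 2) ∈ _
      rw [hz2]
      exact Submodule.add_mem _ (Submodule.add_mem _ (Submodule.neg_mem _ (hX 0)) (Submodule.smul_mem _ _ (hX 1)))
        (Submodule.smul_mem _ _ (hX 2))
  have hcl := hstep c3 hcc
  have hzl := hstep z5 hzz
  -- inverses : powers
  have hpow : ∀ (k : ↥(alternatingGroup (Fin 5))), (∀ w ∈ Submodule.span F (Set.range X),
      ρ k w ∈ Submodule.span F (Set.range X)) → ∀ (n : ℕ), ∀ w ∈ Submodule.span F (Set.range X),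
      ρ (k ^ n) w ∈ Submodule.span F (Set.range X) := by
    intro k hk n
    induction n with
    | zero => intro w hw; rw [pow_zero, map_one]; exact hw
    | succ n ih => intro w hw; rw [pow_succ, mul_act]; exact ih _ (hk w hw)
  have hg : g ∈ Subgroup.closure {z5, c3} := by rw [closure_eq]; trivial
  induction hg using Subgroup.closure_induction with
  | mem x hx =>
    rcases hx with rfl | rfl
    · exact hzl
    · exact hcl
  | one => intro w hw; rw [map_one]; exact hw
  | mul x y _ _ hx hy => intro w hw; rw [mul_act]; exact hx _ (hy w hw)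
  | inv x _ hx =>
    intro w hw
    have h := hpow x hx (orderOf x - 1) w hw
    rwa [show x ^ (orderOf x - 1) = x⁻¹ by
      rw [eq_inv_iff_mul_eq_one, ← pow_succ, Nat.sub_add_cancel (orderOf_pos x), pow_orderOf_eq_one]] at h

/-- the three vectors are linearly independent -/
theorem linInd (h2 : (2 : F) ≠ 0) {ρ : Representation F ↥(alternatingGroup (Fin 5)) V} {X : Fin 3 → V}
    (hX : ∀ i, X i ≠ 0) (h0 : ρ v0 (X 0) = X 0 ∧ ρ v0 (X 1) = -X 1 ∧ ρ v0 (X 2) = -X 2)
    (h1' : ρ v1 (X 0) = -X 0 ∧ ρ v1 (X 1) = X 1 ∧ ρ v1 (X 2) = -X 2) : LinearIndependent F X := by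
  rw [Fintype.linearIndependent_iff]
  intro g hg
  rw [Fin.sum_univ_three] at hg
  obtain ⟨h00, h01, h02⟩ := h0
  obtain ⟨h10, h11, h12⟩ := h1'
  have e1 := congrArg (ρ v0) hg
  have e2 := congrArg (ρ v1) hg
  simp only [map_add, map_smul, h00, h01, h02, h10, h11, h12, map_zero] at e1 e2
  have k0 : (2 : F) • (g 0 • X 0) = 0 := by
    linear_combination (norm := module) e1 + hg
  have k1 : (2 : F) • (g 1 • X 1) = 0 := by
    linear_combination (norm := module) e2 + hg
  have k0' := (smul_eq_zero.1 ((smul_eq_zero.1 k0).resolve_left h2)).resolve_right (hX 0)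
  have k1' := (smul_eq_zero.1 ((smul_eq_zero.1 k1).resolve_left h2)).resolve_right (hX 1)
  rw [k0', k1', zero_smul, zero_smul, zero_add, zero_add] at hg
  have k2' := (smul_eq_zero.1 hg).resolve_right (hX 2)
  intro i
  fin_cases i
  · exact k0'
  · exact k1'
  · exact k2'

end axes

/-! ### linear algebra -/

section linalg

variable {K : Type*} [Field K]

/-- a ternary quadratic form over a finite field has a nontrivial zero -/
theorem exists_zero [Finite K] (h2 : (2 : K) ≠ 0) {U : Type*} [AddCommGroup U] [Module K U] [FiniteDimensional K U]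
    (h3 : 3 ≤ finrank K U) (Q : U → K) (C : U →ₗ[K] U →ₗ[K] K) (hQ : ∀ x y, Q (x + y) = Q x + Q y + C x y)
    (hs : ∀ (c : K) x, Q (c • x) = c ^ 2 * Q x) : ∃ u : U, u ≠ 0 ∧ Q u = 0 := by
  classical
  have := Fintype.ofFinite K
  by_contra hne
  push Not at hne
  have hker : ∀ f : U →ₗ[K] K, finrank K U ≤ finrank K ↥(LinearMap.ker f) + 1 := by
    intro f
    have h := LinearMap.finrank_range_add_finrank_ker f
    have h' : finrank K ↥(LinearMap.range f) ≤ 1 := by
      have := Submodule.finrank_le (LinearMap.range f)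
      rwa [finrank_self] at this
    omega
  have hself : ∀ x, C x x = 2 * Q x := by
    intro x
    have h := hQ x x
    rw [← two_smul K x, hs] at h
    linear_combination -h
  obtain ⟨u1, hu1⟩ : ∃ u : U, u ≠ 0 := by
    have : Nontrivial U := Module.nontrivial_of_finrank_pos (R := K) (by omega)
    exact exists_ne 0
  obtain ⟨u2, hu2m, hu2⟩ : ∃ u ∈ LinearMap.ker (C u1), u ≠ 0 := by
    apply Submodule.exists_mem_ne_zero_of_ne_bot
    intro h
    have := hker (C u1)
    rw [h, finrank_bot] at this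
    omega
  obtain ⟨u3, hu3m, hu3⟩ : ∃ u ∈ LinearMap.ker (C u1) ⊓ LinearMap.ker (C u2), u ≠ 0 := by
    apply Submodule.exists_mem_ne_zero_of_ne_bot
    intro h
    have e1 := hker (C u1)
    have e2 := hker (C u2)
    have e3 := Submodule.finrank_sup_add_finrank_inf_eq (LinearMap.ker (C u1)) (LinearMap.ker (C u2))
    rw [h, finrank_bot] at e3
    have e4 := Submodule.finrank_le (LinearMap.ker (C u1) ⊔ LinearMap.ker (C u2))
    omega
  have c12 : C u1 u2 = 0 := LinearMap.mem_ker.1 hu2m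
  have c13 : C u1 u3 = 0 := LinearMap.mem_ker.1 hu3m.1
  have c23 : C u2 u3 = 0 := LinearMap.mem_ker.1 hu3m.2
  have q1 := hne u1 hu1
  have q2 := hne u2 hu2
  have q3 := hne u3 hu3
  obtain ⟨a, b, hab⟩ := FiniteField.exists_root_sum_quadratic (R := K)
    (f := Polynomial.C (Q u1) * Polynomial.X ^ 2 + Polynomial.C 0 * Polynomial.X + Polynomial.C (Q u3))
    (g := Polynomial.C (Q u2) * Polynomial.X ^ 2 + Polynomial.C 0 * Polynomial.X + Polynomial.C 0)
    (Polynomial.degree_quadratic q1) (Polynomial.degree_quadratic q2) (by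
      apply FiniteField.odd_card_of_char_ne_two
      intro h
      have : CharP K 2 := ringChar.of_eq h
      exact h2 (by exact_mod_cast CharP.cast_eq_zero K 2))
  simp only [Polynomial.eval_add, Polynomial.eval_mul, Polynomial.eval_C, Polynomial.eval_pow, Polynomial.eval_X,
    zero_mul, add_zero] at hab
  have hQv : Q (a • u1 + (b • u2 + u3)) = 0 := by
    rw [hQ, hQ, hs, hs]
    simp only [map_add, map_smul, LinearMap.smul_apply, c12, c13, c23, smul_zero, add_zero]
    linear_combination hab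
  have hv0 : a • u1 + (b • u2 + u3) ≠ 0 := by
    intro h
    have h1 := congrArg (fun v => C v u3) h
    simp only [map_add, map_smul, LinearMap.add_apply, LinearMap.smul_apply, c13, c23, smul_zero, zero_add, map_zero,
      LinearMap.zero_apply, hself] at h1
    exact q3 ((mul_eq_zero.1 h1).resolve_left h2)
  exact hne _ hv0 hQv

variable {V : Type*} [AddCommGroup V] [Module K V] [FiniteDimensional K V]

theorem split (S : V →ₗ[K] V) (X : Submodule K V) (hX : ∀ x ∈ X, S x ∈ X) (lam : K)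
    (hS : ∀ x ∈ X, S (S x) = (lam * lam) • x) :
    finrank K ↥X ≤ finrank K ↥(X ⊓ es S lam) + finrank K ↥(X ⊓ es S (-lam)) := by
  let f : ↥X →ₗ[K] V := (S + lam • (LinearMap.id : V →ₗ[K] V)).domRestrict X
  have hf : ∀ x : ↥X, f x = S x + lam • (x : V) := fun x => rfl
  have h := LinearMap.finrank_range_add_finrank_ker f
  have h1 : finrank K ↥(LinearMap.range f) ≤ finrank K ↥(X ⊓ es S lam) := by
    apply Submodule.finrank_mono
    rintro _ ⟨x, rfl⟩
    rw [hf]
    refine ⟨X.add_mem (hX _ x.2) (X.smul_mem _ x.2), mem_es.2 ?_⟩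
    rw [map_add, map_smul, hS _ x.2]
    module
  have h2 : finrank K ↥(LinearMap.ker f) ≤ finrank K ↥(X ⊓ es S (-lam)) := by
    have e : (LinearMap.ker f).map X.subtype ≤ X ⊓ es S (-lam) := by
      rintro _ ⟨x, hx, rfl⟩
      refine ⟨x.2, mem_es.2 ?_⟩
      have hx' : S x + lam • (x : V) = 0 := hx
      show S x = _
      rw [neg_smul]
      exact eq_neg_of_add_eq_zero_left hx'
    rw [← Submodule.finrank_map_subtype_eq]
    exact Submodule.finrank_mono e
  omega

/-- a space of dimension at most one is detected by a coordinate -/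
theorem exists_coord {ι : Type*} [Fintype ι] [Nonempty ι] {Y : Submodule K (ι → K)} (h : finrank K ↥Y ≤ 1) :
    ∃ i : ι, ∀ y ∈ Y, y i = 0 → y = 0 := by
  obtain ⟨⟨v, hvY⟩, hv⟩ := finrank_le_one_iff.1 h
  by_cases hv0 : v = 0
  · refine ⟨Classical.arbitrary ι, fun y hy _ => ?_⟩
    obtain ⟨c, hc⟩ := hv ⟨y, hy⟩
    have hc' : c • v = y := congrArg Subtype.val hc
    rw [← hc', hv0, smul_zero]
  · obtain ⟨i, hi⟩ := Function.ne_iff.1 hv0
    refine ⟨i, fun y hy hyi => ?_⟩
    obtain ⟨c, hc⟩ := hv ⟨y, hy⟩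
    have hc' : c • v = y := congrArg Subtype.val hc
    rw [← hc', Pi.smul_apply, smul_eq_mul] at hyi
    rw [← hc', (mul_eq_zero.1 hyi).resolve_right hi, zero_smul]

/-- an involution of determinant 1 of a 2-dimensional space is central -/
theorem central_of_sq (h2 : (2 : K) ≠ 0) {M : Matrix (Fin 2) (Fin 2) K} (hM : M * M = 1) (hd : M.det = 1)
    (N : Matrix (Fin 2) (Fin 2) K) : M * N = N * M := by
  have h1 : M = M.adjugate := by
    have e := Matrix.mul_adjugate M
    rw [hd, one_smul] at e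
    calc M = M * (M * M.adjugate) := by rw [e, mul_one]
      _ = M.adjugate := by rw [← mul_assoc, hM, one_mul]
  have hs : M = (M 0 0) • (1 : Matrix (Fin 2) (Fin 2) K) := by
    have e := Matrix.adjugate_fin_two M
    rw [← h1] at e
    have e00 := congrFun (congrFun e 0) 0
    have e01 := congrFun (congrFun e 0) 1
    have e10 := congrFun (congrFun e 1) 0
    simp only [Matrix.of_apply, Matrix.cons_val_zero, Matrix.cons_val_one, Matrix.cons_val', Matrix.cons_val_fin_one] at e00 e01 e10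
    have f01 : M 0 1 = 0 := by
      have : (2 : K) * M 0 1 = 0 := by linear_combination e01
      exact (mul_eq_zero.1 this).resolve_left h2
    have f10 : M 1 0 = 0 := by
      have : (2 : K) * M 1 0 = 0 := by linear_combination e10
      exact (mul_eq_zero.1 this).resolve_left h2
    ext i j
    fin_cases i <;> fin_cases j <;> simp [f01, f10, e00]
  rw [hs, smul_mul_assoc, one_mul, mul_smul_comm, mul_one]

end linalg

/-! ### homomorphisms of `A₅` -/

section hom

/-- a homomorphism of `A₅` which is trivial on a nontrivial element is trivial -/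
theorem hom_trivial {G : Type*} [Group G] (θ : ↥(alternatingGroup (Fin 5)) →* G) {a : ↥(alternatingGroup (Fin 5))}
    (ha : a ≠ 1) (h : θ a = 1) (b : ↥(alternatingGroup (Fin 5))) : θ b = 1 := by
  have hs : IsSimpleGroup ↥(alternatingGroup (Fin 5)) := alternatingGroup.isSimpleGroup (by simp)
  rcases hs.eq_bot_or_eq_top_of_normal θ.ker inferInstance with hk | hk
  · have : a ∈ θ.ker := h
    rw [hk, Subgroup.mem_bot] at this
    exact absurd this ha
  · have : b ∈ θ.ker := by rw [hk]; trivial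
    exact this

/-- `A₅` has no nontrivial homomorphism to `GL₂`, characteristic not 2 -/
theorem hom_gl_two {K : Type*} [Field K] (h2 : (2 : K) ≠ 0) (θ : ↥(alternatingGroup (Fin 5)) →* GL (Fin 2) K)
    (b : ↥(alternatingGroup (Fin 5))) : θ b = 1 := by
  -- the determinant is trivial
  have hcomm : (c3 * v0 * c3⁻¹ * v0⁻¹ : ↥(alternatingGroup (Fin 5))) ≠ 1 := by decide +kernel
  have hdet : ∀ a, Matrix.GeneralLinearGroup.det (θ a) = 1 := by
    intro a
    have h := hom_trivial ((Matrix.GeneralLinearGroup.det).comp θ) hcomm (by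
      simp only [MonoidHom.comp_apply, map_mul, map_inv]
      rw [mul_comm (Matrix.GeneralLinearGroup.det (θ c3)), mul_inv_cancel_right, mul_inv_cancel]) a
    exact h
  have hd : ((θ v0 : GL (Fin 2) K) : Matrix (Fin 2) (Fin 2) K).det = 1 := by
    have := congrArg (fun u : Kˣ => (u : K)) (hdet v0)
    simpa using this
  have hsq : ((θ v0 : GL (Fin 2) K) : Matrix (Fin 2) (Fin 2) K) * ((θ v0 : GL (Fin 2) K) : Matrix (Fin 2) (Fin 2) K)
      = 1 := by
    rw [← Units.val_mul, ← map_mul, H952.F4.Cases.Five.v0_sq, map_one, Units.val_one]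
  have hc : θ c3 * θ v0 = θ v0 * θ c3 := by
    apply Units.ext
    rw [Units.val_mul, Units.val_mul]
    exact (central_of_sq h2 hsq hd _).symm
  refine hom_trivial θ hcomm ?_ b
  rw [map_mul, map_mul, map_mul, map_inv, map_inv, hc, mul_inv_cancel_right, mul_inv_cancel]

end hom

open Cfsg.Agent.ChevalleyStructure.E6Min.Tables Cfsg.Agent.ChevalleyStructure.E6Min.Basic
open Cfsg.Agent.H952.F4.Jord

/-! ### totally singular subspaces -/

section ts

variable {E : Type*} [Field E]

theorem ts_span {X : Fin 3 → (I27 → E)} {t : E} (h2 : (2 : E) ≠ 0) (h5 : (5 : E) ≠ 0) (ht : t * t = t + 1)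
    (h12p : sh (X 1 + t • X 2) = 0) (h12m : sh (X 1 - t • X 2) = 0)
    (h20p : sh (X 2 + t • X 0) = 0) (h20m : sh (X 2 - t • X 0) = 0)
    (h01p : sh (X 0 + t • X 1) = 0) (h01m : sh (X 0 - t • X 1) = 0) :
    H163.E6.TS (Submodule.span E (Set.range X)) := by
  have ht0 : t ≠ 0 := by
    rintro rfl
    rw [mul_zero, zero_add] at ht
    exact zero_ne_one ht
  have key : ∀ {x y : I27 → E}, sh (x + t • y) = 0 → sh (x - t • y) = 0 → cr x y = 0 ∧ sh x = -(t + 1) • sh y := by
    intro x y hp hm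
    rw [sh_add, sh_smul, cr_smul_right] at hp
    rw [sub_eq_add_neg, ← neg_smul, sh_add, sh_smul, cr_smul_right] at hm
    have e1 : (2 : E) • (t • cr x y) = 0 := by
      linear_combination (norm := module) hp - hm
    have e2 : (2 : E) • (sh x + (t * t) • sh y) = 0 := by
      linear_combination (norm := module) hp + hm
    refine ⟨(smul_eq_zero.1 ((smul_eq_zero.1 e1).resolve_left h2)).resolve_left ht0, ?_⟩
    have e3 := (smul_eq_zero.1 e2).resolve_left h2
    rw [ht] at e3
    linear_combination (norm := module) e3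
  obtain ⟨c12, s1⟩ := key h12p h12m
  obtain ⟨c20, s2⟩ := key h20p h20m
  obtain ⟨c01, s0⟩ := key h01p h01m
  -- the adjoints of the three vectors
  have hn : (4 * t + 3) * (7 - 4 * t) = 5 := by linear_combination (-16 : E) * ht
  have hn0 : 4 * t + 3 ≠ 0 := by
    intro h
    rw [h, zero_mul] at hn
    exact h5 hn.symm
  have z0 : sh (X 0) = 0 := by
    have e : (2 * (4 * t + 3)) • sh (X 0) = 0 := by
      have e1 : sh (X 0) = (-(t + 1) * (-(t + 1) * -(t + 1))) • sh (X 0) := by
        rw [mul_smul, mul_smul, ← s2, ← s1, ← s0]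
      have e2 : (-(t + 1) * (-(t + 1) * -(t + 1))) = -(8 * t + 5) := by
        linear_combination (-t - 4 : E) * ht
      rw [e2] at e1
      linear_combination (norm := module) e1
    exact (smul_eq_zero.1 e).resolve_left (mul_ne_zero h2 hn0)
  have z2 : sh (X 2) = 0 := by rw [s2, z0, smul_zero]
  have z1 : sh (X 1) = 0 := by rw [s1, z2, smul_zero]
  have hsh : ∀ i, sh (X i) = 0 := by
    intro i
    fin_cases i
    · exact z0
    · exact z1
    · exact z2
  have hcr : ∀ i j, cr (X i) (X j) = 0 := by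
    have c10 : cr (X 1) (X 0) = 0 := by rw [cr_comm]; exact c01
    have c21 : cr (X 2) (X 1) = 0 := by rw [cr_comm]; exact c12
    have c02 : cr (X 0) (X 2) = 0 := by rw [cr_comm]; exact c20
    have c00 : cr (X 0) (X 0) = 0 := by rw [cr_self, z0, smul_zero]
    have c11 : cr (X 1) (X 1) = 0 := by rw [cr_self, z1, smul_zero]
    have c22 : cr (X 2) (X 2) = 0 := by rw [cr_self, z2, smul_zero]
    intro i j
    fin_cases i <;> fin_cases j
    · exact c00
    · exact c01
    · exact c02
    · exact c10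
    · exact c11
    · exact c12
    · exact c20
    · exact c21
    · exact c22
  have hz : ∀ y : I27 → E, cr (0 : I27 → E) y = 0 := by
    intro y
    have := cr_smul_left (0 : E) 0 y
    rwa [zero_smul, zero_smul] at this
  have hcr1 : ∀ i, ∀ y ∈ Submodule.span E (Set.range X), cr y (X i) = 0 := by
    intro i y hy
    induction hy using Submodule.span_induction with
    | mem x hx =>
      obtain ⟨j, rfl⟩ := hx
      exact hcr j i
    | zero => exact hz _
    | add x y _ _ hx hy => rw [cr_add_left, hx, hy, add_zero]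
    | smul a x _ hx => rw [cr_smul_left, hx, smul_zero]
  have hcr2 : ∀ y ∈ Submodule.span E (Set.range X), ∀ x ∈ Submodule.span E (Set.range X), cr x y = 0 := by
    intro y hy x hx
    induction hx using Submodule.span_induction with
    | mem x hx =>
      obtain ⟨j, rfl⟩ := hx
      rw [cr_comm]
      exact hcr1 j y hy
    | zero => exact hz _
    | add x y _ _ hx hy => rw [cr_add_left, hx, hy, add_zero]
    | smul a x _ hx => rw [cr_smul_left, hx, smul_zero]
  refine ⟨fun x hx => ?_, fun x hx y hy => hcr2 y hy x hx⟩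
  have h : (2 : E) • sh x = 0 := by rw [← cr_self]; exact hcr2 x hx x hx
  exact (smul_eq_zero.1 h).resolve_left h2

end ts

/-! ### the main lemma -/

section key

open Cfsg.Agent.ChevalleyStructure.E6Min.Adjoint
open Cfsg.Agent.H163.E6 (V V' Tab scal TS)
open Cfsg.Agent.H952.F4.Cases.Five (inv5 inv3 v0_sq v0_ne c3_cube c3_ne z5_five z5_ne gen235 powo ne_one_of_order ev_two
  ev_three ev_five)

variable {E : Type u} [Field E]

/-- `V'` is the dual of `V` -/
theorem dual_bot (tf_act : ∀ (g : ↥(Zgrp E)) (x y : I27 → E), tf (V E g x) (V' E g y) = tf x y) {A : Type*} [Group A]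
    (θ : A →* ↥(Zgrp E)) (h2 : Representation.invariants (MonoidHom.comp (V' E) θ) = ⊥) :
    Representation.invariants (Representation.dual (MonoidHom.comp (V E) θ : Representation E A (I27 → E))) = ⊥ := by
  let Φ : (I27 → E) →ₗ[E] Module.Dual E (I27 → E) :=
    LinearMap.mk₂ E (fun y x => tf x y) (fun y y' x => tf_add_right x y y') (fun c y x => tf_smul_right c x y)
      (fun y x x' => tf_add_left x x' y) (fun c y x => tf_smul_left c x y)
  have hΦ : ∀ y x, Φ y x = tf x y := fun y x => rfl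
  have hinj : Function.Injective Φ := by
    rw [← LinearMap.ker_eq_bot, eq_bot_iff]
    intro y hy
    rw [LinearMap.mem_ker] at hy
    rw [Submodule.mem_bot]
    apply tf_nondeg
    intro x
    rw [tf_comm, ← hΦ, hy, LinearMap.zero_apply]
  have hsurj : Function.Surjective Φ :=
    (LinearMap.injective_iff_surjective_of_finrank_eq_finrank (Subspace.dual_finrank_eq).symm).1 hinj
  rw [eq_bot_iff]
  intro f hf
  obtain ⟨y, rfl⟩ := hsurj f
  have hy : y ∈ Representation.invariants (MonoidHom.comp (V' E) θ) := by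
    rw [Representation.mem_invariants]
    intro g
    have h0 : ∀ x, tf x (V' E (θ g) y) = tf x y := by
      intro x
      have e1 : V E (θ g) (V E (θ g)⁻¹ x) = x := by
        rw [← Module.End.mul_apply, ← map_mul, mul_inv_cancel, map_one]
        rfl
      have e2 := tf_act (θ g) (V E (θ g)⁻¹ x) y
      rw [e1] at e2
      rw [e2]
      have e3 := (Representation.mem_invariants _ _).1 hf g
      have e4 := LinearMap.congr_fun e3 x
      rw [Representation.dual_apply, Module.Dual.transpose_apply, LinearMap.comp_apply, MonoidHom.comp_apply, map_inv,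
        hΦ, hΦ] at e4
      exact e4
    have h3 : V' E (θ g) y - y = 0 := by
      apply tf_nondeg
      intro x
      rw [tf_comm]
      have e5 := h0 x
      have e6 : tf x (V' E (θ g) y - y) = tf x (V' E (θ g) y) - tf x y := by
        rw [sub_eq_add_neg, ← neg_one_smul E y, tf_add_right, tf_smul_right]
        ring
      rw [e6, e5, sub_self]
    exact sub_eq_zero.1 h3
  rw [h2, Submodule.mem_bot] at hy
  rw [hy, map_zero]
  exact Submodule.zero_mem _

theorem ev_one_one : ev (1 : Module.End E (I27 → E)) 1 = 27 := by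
  have h : Module.End.eigenspace (1 : Module.End E (I27 → E)) 1 = ⊤ := by
    rw [eq_top_iff]
    intro x _
    rw [Module.End.mem_eigenspace_iff, one_smul]
    rfl
  rw [ev, h, finrank_top, Module.finrank_fintype_fun_eq_card]
  decide

/-- the axes: `A₅` with `ev V (2) = 11` and `ev V (5) = 5` or `7` over a finite field containing the roots of
`t * t = t + 1`: there is a totally singular 3-dimensional submodule spanned by the vectors of `Spec.axes` -/
theorem key_axes [Finite E] (two_ne : (2 : E) ≠ 0) (five_ne : (5 : E) ≠ 0)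
    (ev_dual : ∀ g : ↥(Zgrp E), ev (V' E g) 1 = ev (V E g) 1)
    (sh_act : ∀ (g : ↥(Zgrp E)) (x : I27 → E), sh (V E g x) = V' E g (sh x))
    {t : E} (ht : t * t = t + 1) (θ : ↥(alternatingGroup (Fin 5)) →* ↥(Zgrp E))
    (g2 : ev (V E (θ v0)) 1 = 11) (g5 : ev (V E (θ z5)) 1 = 5 ∨ ev (V E (θ z5)) 1 = 7) :
    ∃ (t' : E) (u : I27 → E) (X : Fin 3 → (I27 → E)), t' * t' = t' + 1 ∧ u ≠ 0 ∧ V E (θ z5) u = u ∧
      V E (θ v0) u = -u ∧ u = X 1 + t' • X 2 ∧ V E (θ v1) u = X 1 - t' • X 2 ∧
      (∀ i, X i ≠ 0) ∧ LinearIndependent E X ∧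
      (V E (θ v0) (X 0) = X 0 ∧ V E (θ v0) (X 1) = -X 1 ∧ V E (θ v0) (X 2) = -X 2) ∧
      (V E (θ v1) (X 0) = -X 0 ∧ V E (θ v1) (X 1) = X 1 ∧ V E (θ v1) (X 2) = -X 2) ∧
      (V E (θ c3) (X 0) = X 1 ∧ V E (θ c3) (X 1) = X 2 ∧ V E (θ c3) (X 2) = X 0) ∧
      (2 : E) • V E (θ z5) (X 0) = (t' - 1) • X 0 - t' • X 1 + X 2 ∧
      (2 : E) • V E (θ z5) (X 1) = t' • X 0 + X 1 + (t' - 1) • X 2 ∧
      (2 : E) • V E (θ z5) (X 2) = -X 0 + (t' - 1) • X 1 + t' • X 2 ∧
      TS (Submodule.span E (Set.range X)) ∧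
      ∀ a, ∀ w ∈ Submodule.span E (Set.range X), V E (θ a) w ∈ Submodule.span E (Set.range X) := by
  let ρ : Representation E ↥(alternatingGroup (Fin 5)) (I27 → E) := MonoidHom.comp (V E) θ
  let ρ' : Representation E ↥(alternatingGroup (Fin 5)) (I27 → E) := MonoidHom.comp (V' E) θ
  have hρ : ∀ a, ρ a = V E (θ a) := fun a => rfl
  have hρ' : ∀ a, ρ' a = V' E (θ a) := fun a => rfl
  have five_ne' : ((5 : ℕ) : E) ≠ 0 := by exact_mod_cast five_ne
  rw [← hρ] at g2
  rw [← hρ] at g5
  have hdim : finrank E (I27 → E) = 27 := by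
    rw [Module.finrank_fintype_fun_eq_card]
    decide
  -- the dihedral group
  have m2 : ev (ρ v0) (-1) = 16 := by
    have h := H952.F4.Eig.ev_neg two_ne (ρ v0)
    have e : ρ v0 * ρ v0 = 1 := by rw [← map_mul, v0_sq, map_one]
    rw [e, ev_one_one] at h
    omega
  have d1 := H952.F4.Eig.dihedral two_ne ρ (z := z5) (s := v0) (m := 5) (by decide) five_ne' z5_five v0_sq inv5
    (Or.inr rfl)
  have d2 := H952.F4.Eig.dihedral two_ne ρ' (z := z5) (s := v0) (m := 5) (by decide) five_ne' z5_five v0_sq inv5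
    (Or.inl rfl)
  have g2' : ev (ρ' v0) 1 = ev (ρ v0) 1 := ev_dual (θ v0)
  have g5' : ev (ρ' z5) 1 = ev (ρ z5) 1 := ev_dual (θ z5)
  rw [hdim, m2] at d1
  rw [hdim, g2', g5', g2] at d2
  have hX5 : 5 ≤ finrank E ↥(es (ρ z5) 1 ⊓ es (ρ v0) (-1)) := by omega
  have hY1 : finrank E ↥(es (ρ' z5) 1 ⊓ es (ρ' v0) 1) ≤ 1 := by omega
  -- the eigenspaces of `sop`
  have hmem : ∀ {v : I27 → E}, v ∈ es (ρ z5) 1 ⊓ es (ρ v0) (-1) ↔ ρ z5 v = v ∧ ρ v0 v = -v := by
    intro v
    rw [Submodule.mem_inf, mem_es, mem_es, one_smul, neg_smul, one_smul]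
  obtain ⟨t', ht', hU⟩ : ∃ t' : E, t' * t' = t' + 1 ∧
      3 ≤ finrank E ↥(es (ρ z5) 1 ⊓ es (ρ v0) (-1) ⊓ es (sop ρ) (2 * t' - 1)) := by
    have h := split (sop ρ) (es (ρ z5) 1 ⊓ es (ρ v0) (-1)) (fun v hv => by
      rw [hmem] at hv ⊢
      exact ⟨(sop_mem hv.1 hv.2).1, (sop_mem hv.1 hv.2).2.1⟩) (2 * t - 1) (fun v hv => by
      rw [hmem] at hv
      rw [(sop_mem hv.1 hv.2).2.2]
      congr 1
      linear_combination (-4 : E) * ht)
    by_cases h3 : 3 ≤ finrank E ↥(es (ρ z5) 1 ⊓ es (ρ v0) (-1) ⊓ es (sop ρ) (2 * t - 1))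
    · exact ⟨t, ht, h3⟩
    · refine ⟨1 - t, by linear_combination ht, ?_⟩
      rw [show 2 * (1 - t) - 1 = -(2 * t - 1) by ring]
      omega
  -- the quadratic form
  obtain ⟨i, hi⟩ := exists_coord hY1
  obtain ⟨⟨u, hu⟩, hu0, huQ⟩ := exists_zero two_ne hU (fun u => sh (u : I27 → E) i)
    (LinearMap.mk₂ E (fun u v => cr (u : I27 → E) (v : I27 → E) i)
      (fun u u' v => by rw [Submodule.coe_add, cr_add_left]; rfl)
      (fun c u v => by rw [Submodule.coe_smul, cr_smul_left]; rfl)
      (fun u v v' => by rw [Submodule.coe_add, cr_add_right]; rfl)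
      (fun c u v => by rw [Submodule.coe_smul, cr_smul_right]; rfl))
    (fun u v => by rw [Submodule.coe_add, sh_add]; rfl)
    (fun c u => by rw [Submodule.coe_smul, sh_smul]; rfl)
  have hu0' : u ≠ 0 := fun h => hu0 (Subtype.ext h)
  obtain ⟨hu1, hu2⟩ := hmem.1 hu.1
  have hu3 : sop ρ u = (2 * t' - 1) • u := mem_es.1 hu.2
  have hshu : sh u = 0 := by
    apply hi _ _ huQ
    rw [Submodule.mem_inf, mem_es, mem_es, one_smul, hρ', hρ', ← sh_act, ← sh_act, ← hρ, ← hρ, hu1, hu2]
    refine ⟨rfl, ?_⟩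
    rw [← neg_one_smul E u, sh_smul]
    norm_num
  have hshg : ∀ (g : ↥(alternatingGroup (Fin 5))) (v : I27 → E), sh v = 0 → sh (ρ g v) = 0 := by
    intro g v hv
    rw [hρ, sh_act, hv, map_zero]
  -- the three-dimensional module
  obtain ⟨X, -, hX0, hxX, ⟨a0, a1, a2⟩, ⟨b0, b1, b2⟩, hc, hz0, hz1, hz2⟩ := axes two_ne ρ hu0' hu1 hu2 hu3
  obtain ⟨hc0, hc1, hc2⟩ := hc
  have hv1 : ρ v1 u = X 1 - t' • X 2 := by
    rw [hxX, map_add, map_smul, b1, b2, smul_neg, ← sub_eq_add_neg]
  refine ⟨t', u, X, ht', hu0', hu1, hu2, hxX, hv1, hX0, linInd two_ne hX0 ⟨a0, a1, a2⟩ ⟨b0, b1, b2⟩, ⟨a0, a1, a2⟩,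
    ⟨b0, b1, b2⟩, ⟨hc0, hc1, hc2⟩, hz0, hz1, hz2, ?_, ?_⟩
  · have k1 : sh (X 1 + t' • X 2) = 0 := by rw [← hxX]; exact hshu
    have k2 : sh (X 1 - t' • X 2) = 0 := by
      have := hshg v1 _ k1
      rwa [map_add, map_smul, b1, b2, smul_neg, ← sub_eq_add_neg] at this
    have k3 : sh (X 2 + t' • X 0) = 0 := by
      have := hshg c3 _ k1
      rwa [map_add, map_smul, hc1, hc2] at this
    have k4 : sh (X 2 - t' • X 0) = 0 := by
      have := hshg c3 _ k2
      rwa [map_sub, map_smul, hc1, hc2] at this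
    have k5 : sh (X 0 + t' • X 1) = 0 := by
      have := hshg c3 _ k3
      rwa [map_add, map_smul, hc0, hc2] at this
    have k6 : sh (X 0 - t' • X 1) = 0 := by
      have := hshg c3 _ k4
      rwa [map_sub, map_smul, hc0, hc2] at this
    exact ts_span two_ne five_ne ht' k1 k2 k3 k4 k5 k6
  · intro a w hw
    exact span_stable two_ne ⟨hc0, hc1, hc2⟩ hz0 hz1 hz2 a w hw

/-- the main lemma, over a field containing the roots of `t * t = t + 1` -/
theorem key [Finite E] (p : ℕ) [hpf : Fact p.Prime] [CharP E p] (hp : p = 3 ∨ 7 ≤ p) (T : Tab p E)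
    (ev_dual : ∀ g : ↥(Zgrp E), ev (V' E g) 1 = ev (V E g) 1)
    (sh_act : ∀ (g : ↥(Zgrp E)) (x : I27 → E), sh (V E g x) = V' E g (sh x))
    (tf_act : ∀ (g : ↥(Zgrp E)) (x y : I27 → E), tf (V E g x) (V' E g y) = tf x y)
    (had : ∀ g : ↥(Zgrp E), ad E g = 1 → ∃ c : Eˣ, c ^ 3 = 1 ∧ (g : GL I27 E) = scal c)
    {t : E} (ht : t * t = t + 1) (θ : ↥(alternatingGroup (Fin 5)) →* ↥(Zgrp E))
    (h1 : Representation.invariants (MonoidHom.comp (V E) θ) = ⊥)
    (h2 : Representation.invariants (MonoidHom.comp (V' E) θ) = ⊥) :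
    ∃ W : Submodule E (I27 → E), finrank E ↥W = 3 ∧ TS W ∧ ∀ a, ∀ w ∈ W, V E (θ a) w ∈ W := by
  have cast_ne : ∀ {m : ℕ}, m.Prime → p ≠ m → (m : E) ≠ 0 := by
    intro m hm h
    rw [Ne, CharP.cast_eq_zero_iff E p m]
    exact fun h1 => h ((Nat.prime_dvd_prime_iff_eq hpf.out hm).1 h1)
  have p2 : p ≠ 2 := by omega
  have p5 : p ≠ 5 := by omega
  have two_ne : (2 : E) ≠ 0 := by exact_mod_cast cast_ne Nat.prime_two p2
  have five_ne' : ((5 : ℕ) : E) ≠ 0 := cast_ne Nat.prime_five p5
  have five_ne : (5 : E) ≠ 0 := by exact_mod_cast five_ne'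
  -- nontriviality
  have hne : ∀ a, a ≠ 1 → θ a ≠ 1 := by
    intro a ha h
    have h3 : ∀ b, θ b = 1 := hom_trivial θ ha h
    have h4 : (fun _ => (1 : E) : I27 → E) ∈ Representation.invariants (MonoidHom.comp (V E) θ) := by
      rw [Representation.mem_invariants]
      intro g
      rw [MonoidHom.comp_apply, h3, map_one]
      rfl
    rw [h1, Submodule.mem_bot] at h4
    have h5 := congrFun h4 (0, 0, 0)
    exact one_ne_zero h5
  let ρ : Representation E ↥(alternatingGroup (Fin 5)) (I27 → E) := MonoidHom.comp (V E) θ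
  let ρ' : Representation E ↥(alternatingGroup (Fin 5)) (I27 → E) := MonoidHom.comp (V' E) θ
  have hρ : ∀ a, ρ a = V E (θ a) := fun a => rfl
  have hρ' : ∀ a, ρ' a = V' E (θ a) := fun a => rfl
  have hdim : finrank E (I27 → E) = 27 := by
    rw [Module.finrank_fintype_fun_eq_card]
    decide
  -- dimensions of the eigenspaces
  have s2 : θ v0 * θ v0 = 1 := by rw [← map_mul, v0_sq, map_one]
  have s3 : θ c3 ^ 3 = 1 := by rw [← map_pow, c3_cube, map_one]
  have s5 : θ z5 ^ 5 = 1 := by rw [← map_pow, z5_five, map_one]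
  have r3 : ∃ g, g * θ c3 * g⁻¹ = (θ c3)⁻¹ := by
    obtain ⟨s, -, -, hs⟩ := inv3
    exact ⟨θ s, by rw [← map_inv, ← map_mul, ← map_mul, hs, map_inv]⟩
  have r5 : ∃ g, g * θ z5 * g⁻¹ = (θ z5)⁻¹ := ⟨θ v0, by rw [← map_inv, ← map_mul, ← map_mul, inv5, map_inv]⟩
  have had3 : ad E (θ c3) ≠ 1 := by
    intro h
    obtain ⟨c, hc3, hc⟩ := had _ h
    obtain ⟨g, hg⟩ := r3
    have e1 : ((θ c3)⁻¹ : ↥(Zgrp E)) = θ c3 := by
      rw [← hg, mul_inv_eq_iff_eq_mul]
      apply Subtype.ext
      rw [Subgroup.coe_mul, Subgroup.coe_mul, hc]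
      apply Units.ext
      show ((g : GL I27 E) : Matrix I27 I27 E) * algebraMap E _ (c : E) =
        algebraMap E _ (c : E) * ((g : GL I27 E) : Matrix I27 I27 E)
      exact (Algebra.commutes _ _).symm
    have e2 : θ c3 * θ c3 = 1 := by
      nth_rewrite 1 [← e1]
      exact inv_mul_cancel _
    have e3 : θ c3 = 1 := by
      have := s3
      rwa [pow_succ, pow_two, e2, one_mul] at this
    exact hne c3 c3_ne e3
  have f3 : 9 ≤ ev (ρ c3) 1 := by
    by_cases h3 : p = 3
    · subst h3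
      have h := H952.F4.Eig.le_mul_ev 3 (T := ρ c3) (by rw [← map_pow, c3_cube, map_one])
      rw [hdim] at h
      omega
    · have h := T.three h3 (θ c3) had3 s3
      have h' := T.three_real h3 (θ c3) had3 s3 r3
      rw [hρ]
      omega
  have f5 := T.five p5 (θ z5) (hne _ z5_ne) s5 r5
  have f2 := T.two p2 (θ v0) (hne _ v0_ne) s2
  rw [← hρ] at f2 f5
  obtain ⟨x, y, hgen, hx, hy, hxy⟩ := gen235 H952.F4.Gen.gen5
  have hsc := H952.F4.Scott.scott ρ hgen
  have hd := dual_bot tf_act θ h2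
  have hsc' : ev (ρ x) 1 + ev (ρ y) 1 + ev (ρ (x * y)) 1 ≤ 27 := by
    have e1 : ρ.invariants = ⊥ := h1
    have e2 : ρ.dual.invariants = ⊥ := hd
    rw [e1, e2, finrank_bot, finrank_bot, hdim] at hsc
    exact hsc
  rw [ev_two (ρ := ρ) (g := x) (by rw [← pow_two]; exact powo hx) (ne_one_of_order hx (by norm_num)),
    ev_three (ρ := ρ) (g := y) (powo hy) (ne_one_of_order hy (by norm_num)),
    ev_five (ρ := ρ) (g := x * y) (powo hxy) (ne_one_of_order hxy (by norm_num))] at hsc'
  have g2 : ev (ρ v0) 1 = 11 := by omega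
  have g5 : ev (ρ z5) 1 = 5 ∨ ev (ρ z5) 1 = 7 := by omega
  obtain ⟨t', u, X, -, -, -, -, -, -, -, hli, -, -, -, -, -, -, hTS, hst⟩ := key_axes two_ne five_ne ev_dual sh_act ht θ
    g2 g5
  exact ⟨_, by rw [finrank_span_eq_card hli, Fintype.card_fin], hTS, hst⟩

end key

/-! ### descent of fixed vectors -/

section descent

open Cfsg.Agent.ChevalleyStructure.E6Min.Adjoint
open Cfsg.Agent.H163.E6 (V V' scal TS V_apply V'_apply)
open Cfsg.Agent.H184.GraphE6 (gU PU PM PM_apply coe_dual coe_PU)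

variable {F E : Type u} [Field F] [Field E]

theorem coe_j (f : F →+* E) (j : ↥(Zgrp F) →* ↥(Zgrp E))
    (hj : ∀ (g : ↥(Zgrp F)) (x : I27 → F), V E (j g) (fun i => f (x i)) = fun i => f (V F g x i)) (g : ↥(Zgrp F)) :
    ((j g : GL I27 E) : Matrix I27 I27 E) = ((g : GL I27 F) : Matrix I27 I27 F).map f := by
  ext i k
  have h := congrFun (hj g (Pi.single k 1)) i
  have e : (fun i => f ((Pi.single k 1 : I27 → F) i)) = (Pi.single k 1 : I27 → E) := by
    funext i
    by_cases hik : i = k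
    · subst hik
      rw [Pi.single_eq_same, Pi.single_eq_same, map_one]
    · rw [Pi.single_eq_of_ne hik, Pi.single_eq_of_ne hik, map_zero]
  rw [e, V_apply, V_apply, Matrix.mulVec_single_one, Matrix.mulVec_single_one] at h
  exact h

theorem coe_j' (f : F →+* E) (j : ↥(Zgrp F) →* ↥(Zgrp E))
    (hj : ∀ (g : ↥(Zgrp F)) (x : I27 → F), V E (j g) (fun i => f (x i)) = fun i => f (V F g x i)) (g : ↥(Zgrp F)) :
    ((gU (j g : GL I27 E) : GL I27 E) : Matrix I27 I27 E) =
      ((gU (g : GL I27 F) : GL I27 F) : Matrix I27 I27 F).map f := by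
  have e1 : (((j g : GL I27 E))⁻¹ : GL I27 E) = ((j g⁻¹ : ↥(Zgrp E)) : GL I27 E) := by
    rw [map_inv]
    rfl
  have e2 : (PM F).map f = PM E := by
    ext x y
    rw [Matrix.map_apply, PM_apply, PM_apply]
    split_ifs
    · exact map_one f
    · exact map_zero f
  show PM E * Matrix.transpose ((((j g : GL I27 E))⁻¹ : GL I27 E) : Matrix I27 I27 E) * PM E =
    (PM F * Matrix.transpose ((((g : GL I27 F))⁻¹ : GL I27 F) : Matrix I27 I27 F) * PM F).map f
  rw [e1, coe_j f j hj, Matrix.map_mul, Matrix.map_mul, e2, Matrix.transpose_map]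
  rfl

theorem fixed_ext (f : F →+* E) {ι : Type*} (M : ι → Matrix I27 I27 F)
    (hM : ∀ x : I27 → F, (∀ a, (M a).mulVec x = x) → x = 0) {x : I27 → E}
    (hx : ∀ a, ((M a).map f).mulVec x = x) : x = 0 := by
  let _ : Algebra F E := f.toAlgebra
  have key : ∀ l : Module.Dual F E, (fun i => l (x i)) = (0 : I27 → F) := by
    intro l
    apply hM
    intro a
    funext i
    have h := congrArg l (congrFun (hx a) i)
    rw [← h]
    simp only [Matrix.mulVec, dotProduct, Matrix.map_apply, map_sum]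
    refine Finset.sum_congr rfl fun k _ => ?_
    have e : f (M a i k) * x k = (M a i k) • x k := rfl
    rw [e, map_smul, smul_eq_mul]
  funext i
  exact (Module.forall_dual_apply_eq_zero_iff F (x i)).1 fun l => congrFun (key l) i

theorem inv_ext (f : F →+* E) (j : ↥(Zgrp F) →* ↥(Zgrp E))
    (hj : ∀ (g : ↥(Zgrp F)) (x : I27 → F), V E (j g) (fun i => f (x i)) = fun i => f (V F g x i)) {A : Type*} [Group A]
    (ψ : A →* ↥(Zgrp F)) (h1 : Representation.invariants (MonoidHom.comp (V F) ψ) = ⊥) :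
    Representation.invariants (MonoidHom.comp (V E) (j.comp ψ)) = ⊥ := by
  rw [eq_bot_iff]
  intro x hx
  rw [Submodule.mem_bot]
  rw [Representation.mem_invariants] at hx
  apply fixed_ext f (fun a : A => ((ψ a : GL I27 F) : Matrix I27 I27 F))
  · intro y hy
    have : y ∈ Representation.invariants (MonoidHom.comp (V F) ψ) := by
      rw [Representation.mem_invariants]
      exact hy
    rwa [h1, Submodule.mem_bot] at this
  · intro a
    have h := hx a
    rw [MonoidHom.comp_apply, MonoidHom.comp_apply, V_apply, coe_j f j hj] at h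
    exact h

theorem inv_ext' (f : F →+* E) (j : ↥(Zgrp F) →* ↥(Zgrp E))
    (hj : ∀ (g : ↥(Zgrp F)) (x : I27 → F), V E (j g) (fun i => f (x i)) = fun i => f (V F g x i)) {A : Type*} [Group A]
    (ψ : A →* ↥(Zgrp F)) (h1 : Representation.invariants (MonoidHom.comp (V' F) ψ) = ⊥) :
    Representation.invariants (MonoidHom.comp (V' E) (j.comp ψ)) = ⊥ := by
  rw [eq_bot_iff]
  intro x hx
  rw [Submodule.mem_bot]
  rw [Representation.mem_invariants] at hx
  apply fixed_ext f (fun a : A => ((gU (ψ a : GL I27 F) : GL I27 F) : Matrix I27 I27 F))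
  · intro y hy
    have : y ∈ Representation.invariants (MonoidHom.comp (V' F) ψ) := by
      rw [Representation.mem_invariants]
      exact hy
    rwa [h1, Submodule.mem_bot] at this
  · intro a
    have h := hx a
    rw [MonoidHom.comp_apply, MonoidHom.comp_apply, V'_apply, coe_j' f j hj] at h
    exact h

/-- a finite field has an extension with a root of `t * t = t + 1`, itself or a quadratic one -/
theorem exists_root (F : Type u) [Field F] [Finite F] (p : ℕ) [Fact p.Prime] [CharP F p] :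
    (∃ t : F, t * t = t + 1) ∨ ∃ (E : Type u) (_ : Field E) (_ : Finite E) (_ : CharP E p) (_ : F →+* E),
      Nat.card E = Nat.card F ^ 2 ∧ ∃ t : E, t * t = t + 1 := by
  by_cases h : ∃ t : F, t * t = t + 1
  · exact Or.inl h
  · right
    push Not at h
    let P : Polynomial F := Polynomial.X ^ 2 - Polynomial.X - 1
    have hdeg : P.natDegree = 2 := by
      show (Polynomial.X ^ 2 - Polynomial.X - 1 : Polynomial F).natDegree = 2
      compute_degree!
    have hP0 : P ≠ 0 := by
      intro h0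
      rw [h0, Polynomial.natDegree_zero] at hdeg
      exact absurd hdeg (by norm_num)
    have hirr : Irreducible P := by
      rw [Polynomial.irreducible_iff_roots_eq_zero_of_degree_le_three (by omega) (by omega)]
      rw [Multiset.eq_zero_iff_forall_notMem]
      intro t ht
      rw [Polynomial.mem_roots hP0, Polynomial.IsRoot.def] at ht
      simp only [P, Polynomial.eval_sub, Polynomial.eval_pow, Polynomial.eval_X, Polynomial.eval_one] at ht
      exact h t (by linear_combination ht)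
    have : Fact (Irreducible P) := ⟨hirr⟩
    have hfr : finrank F (AdjoinRoot P) = 2 := by
      rw [(AdjoinRoot.powerBasis hP0).finrank, AdjoinRoot.powerBasis_dim, hdeg]
    have : Module.Finite F (AdjoinRoot P) := Module.finite_of_finrank_pos (by omega)
    have : Finite (AdjoinRoot P) := Module.finite_of_finite F
    refine ⟨AdjoinRoot P, inferInstance, inferInstance, charP_of_injective_algebraMap
      (algebraMap F (AdjoinRoot P)).injective p, algebraMap F (AdjoinRoot P), ?_, AdjoinRoot.root P, ?_⟩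
    · rw [Module.natCard_eq_pow_finrank (K := F), hfr]
    · have h0 := AdjoinRoot.eval₂_root P
      simp only [P, Polynomial.eval₂_sub, Polynomial.eval₂_pow, Polynomial.eval₂_X, Polynomial.eval₂_one] at h0
      linear_combination h0

end descent

end Cfsg.Agent.H882.E6Five
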