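import Mathlib
import Cfsg.Agent.H905.E6T.Fam
import Cfsg.Agent.H952.F4.Gen
import Cfsg.Agent.H944.E6Tab
import Cfsg.Agent.H163.E6.Sit
import Cfsg.Agent.H200.E6Two
import Cfsg.Agent.H333.E6Act

/-!
# S5927, S5928: `A_n`, `9 ≤ n ≤ 12`, in characteristic 2 (helper882, proof by helper905)

`n = 9, 10, 11` : Scott's lemma for generating triples of type (2, 4, 6), (2, 3, 8), (2, 5, 5); `n = 12` : the fixed
vectors of `A₁₁` on `V` and `V'`.
-/

set_option autoImplicit false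
set_option linter.unusedSectionVars false

namespace Cfsg.Agent.H882.E6Big

open Cfsg Cfsg.Lie Module
open Cfsg.Agent.ChevalleyStructure.E6Min.Tables
open Cfsg.Agent.H952.F4 (ev es sh cr tf tr1 u0)
open Cfsg.Agent.H952.F4.Jord Cfsg.Agent.H163.E6 Cfsg.Agent.H905.E6T

/-! ### generating triples -/

section gens

open Equiv Equiv.Perm

theorem clo {n : ℕ} (x y : Perm (Fin (n + 2))) (hx : x ∈ alternatingGroup (Fin (n + 2)))
    (hy : y ∈ alternatingGroup (Fin (n + 2))) (W : Fin (n + 2) → List (Fin 4))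
    (hW : ∀ k, k ≠ 0 → Cfsg.Agent.H952.F4.Gen.ev x y (W k) = swap 0 1 * swap 0 k) :
    Subgroup.closure {(⟨x, hx⟩ : ↥(alternatingGroup (Fin (n + 2)))), ⟨y, hy⟩} = ⊤ := by
  rw [eq_top_iff]
  intro σ _
  have h1 : (σ : Perm (Fin (n + 2))) ∈ Subgroup.closure {x, y} := by
    refine Cfsg.Agent.H952.F4.Gen.mem_of_star _ ?_ ?_ σ.2
    · rw [Subgroup.closure_le]
      rintro z (rfl | rfl)
      · exact hx
      · exact hy
    · intro k hk
      rw [← hW k hk]
      exact Cfsg.Agent.H952.F4.Gen.ev_mem (Subgroup.subset_closure (by simp)) (Subgroup.subset_closure (by simp)) _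
  have h2 : (Subgroup.closure {(⟨x, hx⟩ : ↥(alternatingGroup (Fin (n + 2)))),
      ⟨y, hy⟩}).map (alternatingGroup (Fin (n + 2))).subtype = Subgroup.closure {x, y} := by
    rw [MonoidHom.map_closure, Set.image_pair]
    rfl
  rw [← h2] at h1
  obtain ⟨τ, hτ, h3⟩ := h1
  rwa [← Subtype.ext h3]

/-- digits of a word -/
def wds (L : List ℕ) : List (Fin 4) := L.map fun i => Fin.ofNat 4 i

theorem trip9 : ∃ x y g : ↥(alternatingGroup (Fin 9)), Subgroup.closure {x, y} = ⊤ ∧ x * x = 1 ∧ y ^ 4 = 1 ∧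
    ((x * y) * (x * y)) ^ 3 = 1 ∧ (x * y) * (x * y) ≠ 1 ∧ g * ((x * y) * (x * y)) * g⁻¹ = ((x * y) * (x * y))⁻¹ := by
  refine ⟨⟨c[0, 4] * c[1, 2] * c[5, 7] * c[6, 8], by rw [mem_alternatingGroup]; decide +kernel⟩,
    ⟨c[0, 6, 7, 4] * c[1, 3, 2, 5], by rw [mem_alternatingGroup]; decide +kernel⟩,
    ⟨c[2, 6] * c[7, 8], by rw [mem_alternatingGroup]; decide +kernel⟩, ?_, ?_, ?_, ?_, ?_, ?_⟩
  · exact clo (n := 7) _ _ _ _ ![[],
    [],
    [0, 2, 2, 0, 2, 2, 0, 3, 0, 2, 0, 3, 0, 2, 0, 2, 0, 2],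
    [0, 3, 0, 3, 0, 2, 2, 0, 2, 0, 3, 3, 0, 2, 0, 2, 2, 0, 2, 0, 2, 2, 0],
    [0, 2, 0, 3, 0, 2, 2, 0, 3, 0, 2, 0, 2, 2, 0, 3, 0, 2, 2, 0, 3, 0],
    [0, 2, 0, 3, 0, 3, 0, 2, 0, 3, 3, 0, 3, 0, 2, 0, 3, 0, 3, 0],
    [3, 0, 2, 0, 3, 0, 2, 0, 2, 2, 0, 2, 2, 0, 3, 0, 3, 0],
    [3, 0, 3, 0, 2, 2, 0, 2, 0, 2, 0, 3, 0, 2, 0, 2, 2, 0, 2, 2, 0, 3],
    [2, 0, 2, 2, 0, 3, 0, 2, 2, 0, 3, 0, 2, 2, 0, 2, 0, 3, 0, 2, 2]] (by decide +kernel)
  all_goals decide +kernel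

theorem trip10 : ∃ x y g : ↥(alternatingGroup (Fin 10)), Subgroup.closure {x, y} = ⊤ ∧ x * x = 1 ∧ y ^ 3 = 1 ∧
    y ≠ 1 ∧ g * y * g⁻¹ = y⁻¹ ∧ (x * y) ^ 8 = 1 := by
  refine ⟨⟨c[0, 7] * c[1, 6] * c[2, 8] * c[3, 5], by rw [mem_alternatingGroup]; decide +kernel⟩,
    ⟨c[0, 3, 6] * c[1, 5, 9] * c[4, 7, 8], by rw [mem_alternatingGroup]; decide +kernel⟩,
    ⟨c[1, 4] * c[3, 6] * c[5, 8] * c[7, 9], by rw [mem_alternatingGroup]; decide +kernel⟩, ?_, ?_, ?_, ?_, ?_, ?_⟩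
  · exact clo (n := 8) _ _ _ _ ![[],
    [],
    [2, 0, 3, 0, 3, 0, 3, 0, 2, 0, 2, 0, 3, 0, 2, 0, 3, 0, 2, 0, 2, 0, 2, 0, 3, 0, 2, 0, 3, 0, 3, 0, 3, 0, 2, 0, 3, 0, 2, 0, 3, 0],
    [0, 2, 0, 3, 0, 2, 0, 3, 0, 2, 0, 3, 0, 2, 0, 2, 0, 3, 0, 3, 0, 2, 0, 2, 0, 2, 0, 3, 0, 2, 0, 3, 0, 3, 0, 2, 0, 3],
    [2, 0, 3, 0, 2, 0, 3, 0, 2, 0, 2, 0, 3, 0, 2, 0, 2, 0, 3, 0, 2, 0, 2, 0, 3, 0, 2, 0, 2, 0, 3, 0, 3, 0, 3],
    [3, 0, 3, 0, 2, 0, 3, 0, 2, 0, 3, 0, 2, 0, 3, 0, 2, 0, 3, 0, 2, 0, 3, 0, 2, 0, 3, 0, 3],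
    [3, 0, 3, 0, 2, 0, 2, 0, 3, 0, 3, 0, 2, 0, 3, 0, 3, 0, 2, 0, 3, 0, 3, 0, 2, 0, 3, 0, 3, 0, 2, 0, 3, 0, 2, 0, 2, 0, 2],
    [3, 0, 2, 0, 2, 0, 3, 0, 2, 0, 2, 0, 3, 0, 3, 0, 3, 0, 2, 0, 2, 0, 3, 0, 3, 0, 3, 0, 2, 0, 3, 0, 2, 0, 3, 0, 2, 0, 3, 0, 3, 0],
    [2, 0, 2, 0, 2, 0, 3, 0, 2, 0, 2, 0, 3, 0, 2, 0, 2, 0, 3, 0, 3, 0, 3, 0, 2, 0, 3, 0, 2, 0, 3, 0, 3, 0, 2, 0, 3, 0, 3, 0, 2, 0, 2],
    [2, 0, 2, 0, 3, 0, 2, 0, 2, 0, 3, 0, 2, 0, 2, 0, 3, 0, 3, 0, 3, 0, 2, 0, 3, 0, 2, 0, 3, 0, 3, 0, 2, 0, 3, 0, 3, 0, 2, 0, 3, 0]] (by decide +kernel)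
  all_goals decide +kernel

theorem trip11 : ∃ x y g h : ↥(alternatingGroup (Fin 11)), Subgroup.closure {x, y} = ⊤ ∧ x * x = 1 ∧ y ^ 5 = 1 ∧
    y ≠ 1 ∧ g * y * g⁻¹ = y ^ 2 ∧ (x * y) ^ 5 = 1 ∧ x * y ≠ 1 ∧ h * (x * y) * h⁻¹ = (x * y) ^ 2 := by
  refine ⟨⟨c[0, 10] * c[1, 6] * c[2, 8] * c[3, 7], by rw [mem_alternatingGroup]; decide +kernel⟩,
    ⟨c[0, 1, 2, 5, 10] * c[4, 6, 9, 8, 7], by rw [mem_alternatingGroup]; decide +kernel⟩,
    ⟨c[1, 2, 10, 5] * c[6, 9, 7, 8], by rw [mem_alternatingGroup]; decide +kernel⟩,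
    ⟨c[2, 6, 9, 5] * c[3, 4, 7, 8], by rw [mem_alternatingGroup]; decide +kernel⟩, ?_, ?_, ?_, ?_, ?_, ?_, ?_, ?_⟩
  · exact clo (n := 9) _ _ _ _ ![[],
    [],
    [3, 0, 3, 3, 0, 2, 0, 3, 0, 3, 3, 0, 2, 0, 2, 2, 0, 2, 2, 0, 3, 0, 2, 0, 2, 2, 0, 2, 2, 0],
    [2, 2, 0, 3, 0, 3, 3, 0, 2, 0, 3, 0, 2, 0, 3, 0, 2, 0, 3, 3, 0, 2, 2],
    [2, 0, 2, 2, 0, 2, 2, 0, 3, 0, 2, 0, 3, 0, 2, 0, 3, 0, 2, 2, 0, 2, 0, 3, 0, 3],
    [3, 3, 0, 3, 0, 2, 2, 0, 2, 2, 0, 2, 2, 0, 2, 0, 3, 0, 2, 0, 3, 0, 3, 3, 0, 3, 3],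
    [3, 0, 2, 2, 0, 2, 0, 3, 0, 3, 3, 0, 3, 3, 0, 3, 3, 0, 2, 0, 3, 0, 2, 0, 3, 0, 3, 0, 2, 0, 2],
    [0, 3, 0, 3, 0, 2, 0, 2, 0, 3, 0, 2, 0, 3, 0, 3, 3, 0, 3, 3, 0, 3, 3, 0, 2, 0, 3, 3, 0, 3],
    [0, 3, 3, 0, 2, 0, 3, 0, 3, 0, 2, 0, 3, 0, 2, 0, 3, 0, 2, 0, 3, 0, 2, 2, 0, 3, 0, 2, 2, 0],
    [3, 3, 0, 3, 3, 0, 3, 3, 0, 3, 3, 0, 3, 3, 0, 2, 0, 3, 0, 2, 2, 0, 2, 0, 3, 3, 0, 3, 0, 2],
    [3, 3, 0, 3, 3, 0, 2, 0, 3, 0, 3, 3, 0, 2, 0, 2, 2, 0, 2, 2, 0, 3, 0, 2, 0, 2, 2, 0, 2, 2, 0, 2]] (by decide +kernel)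
  all_goals decide +kernel

theorem el12 : ∃ z g : ↥(alternatingGroup (Fin 12)), z ^ 5 = 1 ∧ z ≠ 1 ∧ g * z * g⁻¹ = z ^ 2 ∧
    ∀ i : Fin 12, i.val < 7 → (z : Perm (Fin 12)) i = i := by
  refine ⟨⟨c[7, 8, 9, 10, 11], by rw [mem_alternatingGroup]; decide +kernel⟩,
    ⟨c[5, 6] * c[8, 9, 11, 10], by rw [mem_alternatingGroup]; decide +kernel⟩, ?_, ?_, ?_, ?_⟩
  all_goals decide +kernel


end gens

universe u

variable {F : Type u} [Field F]

/-! ### numerical conditions -/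

/-- characteristic 2: a linear map has at least half as many fixed vectors as its square -/
theorem ev_sq (h2 : (2 : F) = 0) {M : Type*} [AddCommGroup M] [Module F M] [FiniteDimensional F M]
    (T : Module.End F M) : ev (T * T) 1 ≤ 2 * ev T 1 := by
  have h1 : ∀ v, v ∈ End.eigenspace (T * T) 1 ↔ T (T v - v) = T v - v := by
    intro v
    rw [End.mem_eigenspace_iff, one_smul, map_sub, Module.End.mul_apply]
    constructor
    · intro h
      rw [h]
      have h3 : (T v - v) + (T v - v) = 0 := add_self2 h2 _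
      rw [← neg_sub, neg_eq_iff_add_eq_zero]
      exact h3
    · intro h
      have h3 : T v + T v = 0 := add_self2 h2 _
      have h4 : v + v = 0 := add_self2 h2 _
      have h5 : T (T v) = T v + T v - v := by rw [sub_eq_iff_eq_add.1 h]; abel
      rw [h5, h3, zero_sub, neg_eq_iff_add_eq_zero]
      exact h4
  set D : M →ₗ[F] M := T - 1 with hD
  have hDa : ∀ v, D v = T v - v := fun v => rfl
  have h3 := LinearMap.finrank_range_add_finrank_ker (D.domRestrict (End.eigenspace (T * T) 1))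
  have h4 : finrank F ↥(LinearMap.range (D.domRestrict (End.eigenspace (T * T) 1))) ≤
      finrank F ↥(End.eigenspace T 1) := by
    apply Submodule.finrank_mono
    rintro _ ⟨v, rfl⟩
    rw [LinearMap.domRestrict_apply, End.mem_eigenspace_iff, one_smul, hDa]
    exact (h1 v).1 v.2
  have h5 : finrank F ↥(LinearMap.ker (D.domRestrict (End.eigenspace (T * T) 1))) ≤
      finrank F ↥(End.eigenspace T 1) := by
    rw [← Submodule.finrank_map_subtype_eq (End.eigenspace (T * T) 1)]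
    apply Submodule.finrank_mono
    rintro _ ⟨v, hv, rfl⟩
    rw [SetLike.mem_coe, LinearMap.mem_ker, LinearMap.domRestrict_apply, hDa] at hv
    rw [End.mem_eigenspace_iff, one_smul]
    exact sub_eq_zero.1 hv
  unfold ev
  omega

/-- the numerical conditions for a representation of a group on `V` -/
structure Num {G : Type*} [Group G] (σ : Representation F G (I27 → F)) : Prop where
  two : ∀ x, x * x = 1 → 15 ≤ ev (σ x) 1
  four : ∀ x, x ^ 4 = 1 → 8 ≤ ev (σ x) 1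
  three : ∀ x g, x ^ 3 = 1 → x ≠ 1 → g * x * g⁻¹ = x⁻¹ → 9 ≤ ev (σ x) 1
  five : ∀ x g, x ^ 5 = 1 → x ≠ 1 → g * x * g⁻¹ = x ^ 2 → ev (σ x) 1 = 7

theorem Num.comp {G G' : Type*} [Group G] [Group G'] {σ : Representation F G (I27 → F)} (h : Num σ) (f : G' →* G)
    (hf : Function.Injective f) : Num (MonoidHom.comp σ f) := by
  have hne : ∀ x, x ≠ 1 → f x ≠ 1 := fun x hx h0 => hx (hf (h0.trans (map_one f).symm))
  refine ⟨fun x hx => ?_, fun x hx => ?_, fun x g hx hx1 hg => ?_, fun x g hx hx1 hg => ?_⟩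
  · exact h.two (f x) (by rw [← map_mul, hx, map_one])
  · exact h.four (f x) (by rw [← map_pow, hx, map_one])
  · exact h.three (f x) (f g) (by rw [← map_pow, hx, map_one]) (hne x hx1) (by rw [← map_inv, ← map_mul, ← map_mul, hg, map_inv])
  · exact h.five (f x) (f g) (by rw [← map_pow, hx, map_one]) (hne x hx1) (by rw [← map_inv, ← map_mul, ← map_mul, hg, map_pow])

theorem nine_false (h2 : (2 : F) = 0) {σ σ' : Representation F ↥(alternatingGroup (Fin 9)) (I27 → F)} (hP : PD σ σ')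
    (hN : Num σ) (h0 : σ.invariants = ⊥) (h0' : σ'.invariants = ⊥) : False := by
  obtain ⟨x, y, g, hgen, hx, hy, hz, hz1, hg⟩ := trip9
  have h := hP.scott hgen
  rw [h0, h0', finrank_bot] at h
  have k1 := hN.two x hx
  have k2 := hN.four y hy
  have k3 := hN.three _ g hz hz1 hg
  have k4 := ev_sq h2 (σ (x * y))
  rw [← map_mul] at k4
  omega

theorem ten_false (h2 : (2 : F) = 0) {σ σ' : Representation F ↥(alternatingGroup (Fin 10)) (I27 → F)} (hP : PD σ σ')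
    (hN : Num σ) (h0 : σ.invariants = ⊥) (h0' : σ'.invariants = ⊥) : False := by
  obtain ⟨x, y, g, hgen, hx, hy, hy1, hg, hz⟩ := trip10
  have h := hP.scott hgen
  rw [h0, h0', finrank_bot] at h
  have k1 := hN.two x hx
  have k2 := hN.three y g hy hy1 hg
  have k4 := ev_sq h2 (σ (x * y))
  rw [← map_mul] at k4
  have k5 := ev_sq h2 (σ (x * y * (x * y)))
  rw [← map_mul] at k5
  have k6 := hN.four (x * y * (x * y)) (by rw [← pow_two, ← pow_mul]; exact hz)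
  omega

theorem eleven {σ σ' : Representation F ↥(alternatingGroup (Fin 11)) (I27 → F)} (hP : PD σ σ')
    (hN : Num σ) : 2 ≤ finrank F σ.invariants + finrank F σ'.invariants := by
  obtain ⟨x, y, g, g', hgen, hx, hy, hy1, hg, hz, hz1, hg'⟩ := trip11
  have h := hP.scott hgen
  have k1 := hN.two x hx
  have k2 := hN.five y g hy hy1 hg
  have k3 := hN.five (x * y) g' hz hz1 hg'
  omega

/-! ### degree 12 -/

section twelve

variable {σ σ' : Representation F ↥(alternatingGroup (Fin 12)) (I27 → F)}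

/-- restriction to `A₁₁` -/
noncomputable abbrev res (σ : Representation F ↥(alternatingGroup (Fin 12)) (I27 → F)) :
    Representation F ↥(alternatingGroup (Fin 11)) (I27 → F) :=
  MonoidHom.comp σ (io (by norm_num : 11 ≤ 12))

/-- the vectors fixed by `A₁₁` give families -/
theorem exists_fam_of_inv {x : I27 → F} (hx : x ∈ (res σ).invariants) :
    ∃ v, Fam σ v ∧ v 11 = x := by
  refine exists_fam (by norm_num) 11 x fun g hg => ?_
  obtain ⟨g', hg'⟩ := exists_io (by norm_num : 11 ≤ 12) g (by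
    intro i hi
    have : i = 11 := by omega
    rw [this, hg])
  rw [Representation.mem_invariants] at hx
  rw [← hg']
  exact hx g'

/-- independent families give many fixed vectors -/
theorem fam_count (h2 : (2 : F) = 0) (hinv : σ.invariants = ⊥) {κ : Type} [Fintype κ] {v : κ → Fin 12 → I27 → F}
    (hv : ∀ k, Fam σ (v k)) (hli : LinearIndependent F fun k => v k 11) :
    LinearIndependent F (fun q : κ × Fin 7 => v q.1 (Fin.castLE (by norm_num) q.2)) := by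
  classical
  rw [Fintype.linearIndependent_iff]
  intro c hc
  let c' : κ → Fin 12 → F := fun k i => if h : i.val < 7 then c (k, ⟨i.val, h⟩) else 0
  have h1 : ∑ k, ∑ i, c' k i • v k i = 0 := by
    rw [← hc, Fintype.sum_prod_type]
    apply Finset.sum_congr rfl
    intro k _
    have : ∀ f : Fin 12 → I27 → F, (∀ i : Fin 12, 7 ≤ i.val → f i = 0) →
        ∑ i, f i = ∑ j : Fin 7, f (Fin.castLE (by norm_num) j) := by
      intro f hf
      simp only [Fin.sum_univ_succ, Fin.sum_univ_zero]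
      rw [hf (Fin.succ (Fin.succ (Fin.succ (Fin.succ (Fin.succ (Fin.succ (Fin.succ 0))))))) (by decide),
        hf (Fin.succ (Fin.succ (Fin.succ (Fin.succ (Fin.succ (Fin.succ (Fin.succ (Fin.succ 0)))))))) (by decide),
        hf (Fin.succ (Fin.succ (Fin.succ (Fin.succ (Fin.succ (Fin.succ (Fin.succ (Fin.succ (Fin.succ 0))))))))) (by decide),
        hf (Fin.succ (Fin.succ (Fin.succ (Fin.succ (Fin.succ (Fin.succ (Fin.succ (Fin.succ (Fin.succ (Fin.succ 0)))))))))) (by decide),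
        hf (Fin.succ (Fin.succ (Fin.succ (Fin.succ (Fin.succ (Fin.succ (Fin.succ (Fin.succ (Fin.succ (Fin.succ (Fin.succ 0))))))))))) (by decide)]
      simp only [add_zero]
      rfl
    rw [this _ (by
      intro i hi
      simp only [c']
      rw [dif_neg (by omega), zero_smul])]
    apply Finset.sum_congr rfl
    intro j _
    simp only [c']
    rw [dif_pos (by simp)]
    rfl
  intro q
  obtain ⟨k, i⟩ := q
  have h3 := fam_rel h2 (by norm_num : 5 ≤ 12) hinv hv h1 (a := Fin.castLE (by norm_num) i) (b := 11) (by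
    intro h
    have := congrArg Fin.val h
    have := i.2
    simp at *
    omega) 11
  have h4 := Fintype.linearIndependent_iff.1 hli _ h3 k
  simp only [c'] at h4
  rw [dif_pos (by simp), dif_neg (by decide), add_zero] at h4
  exact h4

theorem two_false (h2 : (2 : F) = 0) (hinv : σ.invariants = ⊥) (hN : Num σ)
    (hd : 2 ≤ finrank F (res σ).invariants) : False := by
  obtain ⟨f, hf⟩ := exists_linearIndependent_of_le_finrank hd
  have hf' : LinearIndependent F fun k : Fin 2 => ((f k : _) : I27 → F) := hf.map' (Submodule.subtype _) (Submodule.ker_subtype _)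
  choose v hv hv11 using fun k => exists_fam_of_inv (f k).2
  have h1 := fam_count h2 hinv hv (by simpa only [hv11] using hf')
  obtain ⟨z, g, hz, hz1, hg, hfix⟩ := el12
  have h3 := hN.five z g hz hz1 hg
  have h4 : Submodule.span F (Set.range fun q : Fin 2 × Fin 7 => v q.1 (Fin.castLE (by norm_num) q.2)) ≤
      End.eigenspace (σ z) 1 := by
    rw [Submodule.span_le]
    rintro _ ⟨q, rfl⟩
    rw [SetLike.mem_coe, End.mem_eigenspace_iff, one_smul]
    change σ z (v q.1 _) = v q.1 _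
    rw [hv q.1 z, hfix _ (by simp)]
  have h5 := Submodule.finrank_mono h4
  rw [finrank_span_eq_card h1] at h5
  unfold ev at h3
  rw [h3] at h5
  simp at h5

theorem one_one (h2 : (2 : F) = 0) (hP : PD σ σ') (hinv : σ.invariants = ⊥) (hinv' : σ'.invariants = ⊥) (hN' : Num σ')
    {x x' : I27 → F} (hx : x ∈ (res σ).invariants)
    (hx' : x' ∈ (res σ').invariants) (hx0' : x' ≠ 0) : x = 0 := by
  obtain ⟨v, hv, rfl⟩ := exists_fam_of_inv hx
  obtain ⟨w, hw, rfl⟩ := exists_fam_of_inv hx'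
  obtain ⟨z, g, hz, hz1, hg, hfix⟩ := el12
  have five_ne : (5 : F) ≠ 0 := by
    intro h5
    have : (1 : F) = 0 := by linear_combination h5 - 2 * h2
    exact one_ne_zero this
  -- the pairing of the families
  have hpair : ∀ i j k l : Fin 12, i ≠ j → k ≠ l → tf (v i) (w j) = tf (v k) (w l) := by
    intro i j k l hij hkl
    obtain ⟨m, hm1, hm2⟩ := move2 (by norm_num : 4 ≤ 12) hij hkl
    rw [← hm1, ← hm2, ← hv, ← hw, hP.htf]
  have hdiag : ∀ i k : Fin 12, tf (v i) (w i) = tf (v k) (w k) := by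
    intro i k
    obtain ⟨m, hm1⟩ := move1 (by norm_num : 3 ≤ 12) i k
    rw [← hm1, ← hv, ← hw, hP.htf]
  have hsum := fam_sum hinv' hw
  have h01 : tf (v 0) (w 0) = tf (v 0) (w 1) := by
    have h3 : tf (v 0) (∑ j, w j) = 0 := by rw [hsum, tf_zero_right]
    have h4 : tf (v 0) (∑ j, w j) = ∑ j, tf (v 0) (w j) := by
      have : ∀ j, tf (v 0) (w j) = tfB F (v 0) (w j) := fun j => (tfB_apply _ _).symm
      simp only [this, ← map_sum]
      rfl
    rw [h4] at h3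
    have h5 : ∀ j : Fin 12, tf (v 0) (w j) = tf (v 0) (w 1) +
        (if j = 0 then tf (v 0) (w 0) - tf (v 0) (w 1) else 0) := by
      intro j
      by_cases hj : j = 0
      · rw [if_pos hj, hj]; ring
      · rw [if_neg hj, add_zero]; exact hpair 0 j 0 1 (Ne.symm hj) (by decide)
    rw [Finset.sum_congr rfl (fun j _ => h5 j), Finset.sum_add_distrib, Finset.sum_const, Finset.sum_ite_eq',
      if_pos (Finset.mem_univ _), Finset.card_univ, Fintype.card_fin, nsmul_eq_mul] at h3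
    push_cast at h3
    linear_combination h3 - 6 * h2 * tf (v 0) (w 1)
  have hall : ∀ i j, tf (v i) (w j) = tf (v 0) (w 0) := by
    intro i j
    by_cases hij : i = j
    · subst hij; exact hdiag i 0
    · rw [h01]; exact hpair i j 0 1 hij (by decide)
  -- the fixed vectors of `z`
  have h3 := hN'.five z g hz hz1 hg
  have hli := fam_count (κ := Unit) (v := fun _ => w) h2 hinv' (fun _ => hw) (by
    rw [linearIndependent_unique_iff]; exact hx0')
  have h4 : Submodule.span F (Set.range fun q : Unit × Fin 7 => w (Fin.castLE (by norm_num) q.2)) ≤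
      End.eigenspace (σ' z) 1 := by
    rw [Submodule.span_le]
    rintro _ ⟨q, rfl⟩
    rw [SetLike.mem_coe, End.mem_eigenspace_iff, one_smul]
    change σ' z (w _) = w _
    rw [hw z, hfix _ (by simp)]
  have h5 := Submodule.eq_of_le_of_finrank_le h4 (by
    rw [finrank_span_eq_card hli]
    unfold ev at h3
    rw [h3]
    simp)
  set d := v 0 - v 1 with hd
  have hd1 : ∀ y ∈ End.eigenspace (σ' z) 1, tf d y = 0 := by
    intro y hy
    rw [← h5] at hy
    induction hy using Submodule.span_induction with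
    | mem y hy =>
      obtain ⟨q, rfl⟩ := hy
      rw [hd, sub_eq_add_neg, ← neg_one_smul F (v 1), tf_add_left, tf_smul_left, hall, hall 1]
      ring
    | zero => exact tf_zero_right _
    | add a b _ _ ha hb => rw [tf_add_right, ha, hb, add_zero]
    | smul c a _ ha => rw [tf_smul_right, ha, mul_zero]
  have hdz : σ z d = d := by
    rw [hd, map_sub, hv z, hv z, hfix 0 (by decide), hfix 1 (by decide)]
  have hd0 : d = 0 := by
    refine tf_nondeg fun y => ?_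
    have hz5 : ∀ u, σ' z (σ' z (σ' z (σ' z (σ' z u)))) = u := by
      intro u
      have : σ' (z ^ 5) u = u := by rw [hz, map_one]; rfl
      simpa [pow_succ, map_mul] using this
    have h6 : tf d (y + σ' z y + σ' z (σ' z y) + σ' z (σ' z (σ' z y)) + σ' z (σ' z (σ' z (σ' z y)))) = 0 := by
      apply hd1
      rw [End.mem_eigenspace_iff, one_smul]
      simp only [map_add]
      rw [hz5]
      abel
    have h7 : ∀ u, tf d (σ' z u) = tf d u := by
      intro u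
      conv_lhs => rw [← hdz]
      exact hP.htf z d u
    simp only [tf_add_right, h7] at h6
    have h8 : (5 : F) * tf d y = 0 := by linear_combination h6
    exact (mul_eq_zero.1 h8).resolve_left five_ne
  exact fam_const (by norm_num) hinv hv (a := 0) (b := 1) (by decide) (sub_eq_zero.1 hd0) 11

theorem twelve_false (h2 : (2 : F) = 0) (hP : PD σ σ') (hinv : σ.invariants = ⊥) (hinv' : σ'.invariants = ⊥)
    (hN : Num σ) (hN' : Num σ') : False := by
  have hio : Function.Injective (io (by norm_num : 11 ≤ 12)) := Cfsg.Agent.H191.AltElts.embAlt_injective _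
  have h : 2 ≤ finrank F (res σ).invariants + finrank F (res σ').invariants :=
    eleven (hP.comp (io (by norm_num : 11 ≤ 12))) (hN.comp _ hio)
  rcases Nat.lt_or_ge 1 (finrank F (res σ).invariants) with h1 | h1
  · exact two_false h2 hinv hN h1
  rcases Nat.lt_or_ge 1 (finrank F (res σ').invariants) with h1' | h1'
  · exact two_false h2 hinv' hN' h1'
  have k1 : finrank F (res σ).invariants ≠ 0 := by omega
  have k2 : finrank F (res σ').invariants ≠ 0 := by omega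
  obtain ⟨x, hx⟩ := Module.finrank_pos_iff_exists_ne_zero.1 (Nat.pos_of_ne_zero k1)
  obtain ⟨x', hx'⟩ := Module.finrank_pos_iff_exists_ne_zero.1 (Nat.pos_of_ne_zero k2)
  exact hx (Subtype.ext (one_one h2 hP hinv hinv' hN' x.2 x'.2 (fun h0 => hx' (Subtype.ext h0))))

end twelve

/-! ### lifts -/

section lift

open Cfsg.Agent.ChevalleyStructure.E6Min.Basic Cfsg.Agent.ChevalleyStructure.E6Min.Adjoint

variable [Finite F] {n : ℕ} {φ : ↥(alternatingGroup (Fin n)) →* ↥(chevE6.group F)}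
  {ψ : ↥(alternatingGroup (Fin n)) →* ↥(Zgrp F)}

theorem pd_lift (ψ : ↥(alternatingGroup (Fin n)) →* ↥(Zgrp F)) :
    PD (MonoidHom.comp (V F) ψ) (MonoidHom.comp (V' F) ψ) :=
  ⟨fun g x y => Act.tf_act (ψ g) x y, fun g x => Act.sh_act (ψ g) x, fun g x => Act.sh_act' (ψ g) x⟩

theorem ne_lift (hφ : Function.Injective φ) (hψ : Lift φ ψ) {x : ↥(alternatingGroup (Fin n))} (hx : x ≠ 1) :
    ad F (ψ x) ≠ 1 := by
  rw [hψ x]
  exact fun h => hx (hφ (h.trans (map_one φ).symm))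

theorem num_V [CharP F 2] (hφ : Function.Injective φ) (hψ : Lift φ ψ) : Num (MonoidHom.comp (V F) ψ) := by
  have : Fact (Nat.Prime 2) := ⟨Nat.prime_two⟩
  have T := Tor.tab 2 (F := F)
  refine ⟨fun x hx => ?_, fun x hx => ?_, fun x g hx hx1 hg => ?_, fun x g hx hx1 hg => ?_⟩
  · exact Tor.two_two (ψ x) (by rw [← map_mul, hx, map_one])
  · exact Tor.two_four (ψ x) (by rw [← map_pow, hx, map_one])
  · have k1 := T.three (by norm_num) (ψ x) (ne_lift hφ hψ hx1) (by rw [← map_pow, hx, map_one])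
    have k2 := T.three_real (by norm_num) (ψ x) (ne_lift hφ hψ hx1) (by rw [← map_pow, hx, map_one])
      ⟨ψ g, by rw [← map_inv, ← map_mul, ← map_mul, hg, map_inv]⟩
    change 9 ≤ ev (V F (ψ x)) 1
    rcases k1 with k | k | k | k
    · omega
    · omega
    · omega
    · exact absurd k.1 k2
  · have hne : ψ x ≠ 1 := fun h => ne_lift hφ hψ hx1 (by rw [h, map_one])
    exact (T.five_rat (by norm_num) (ψ x) hne (by rw [← map_pow, hx, map_one])
      ⟨ψ g, by rw [← map_inv, ← map_mul, ← map_mul, hg, map_pow]⟩).1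

theorem num_V' [CharP F 2] (hφ : Function.Injective φ) (hψ : Lift φ ψ) : Num (MonoidHom.comp (V' F) ψ) := by
  have h := num_V hφ hψ
  have e : ∀ x, ev ((MonoidHom.comp (V' F) ψ) x) 1 = ev ((MonoidHom.comp (V F) ψ) x) 1 := by
    intro x
    change ev (V' F (ψ x)) 1 = ev (V F (ψ x)) 1
    rw [Act.ev_dual _ one_ne_zero, inv_one]
  refine ⟨fun x hx => ?_, fun x hx => ?_, fun x g hx hx1 hg => ?_, fun x g hx hx1 hg => ?_⟩
  · rw [e]; exact h.two x hx
  · rw [e]; exact h.four x hx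
  · rw [e]; exact h.three x g hx hx1 hg
  · rw [e]; exact h.five x g hx hx1 hg

theorem two_eq_zero [CharP F 2] : (2 : F) = 0 := by
  have := CharP.cast_eq_zero F 2
  exact_mod_cast this

end lift

end Cfsg.Agent.H882.E6Big

namespace Cfsg.Agent.H163.E6.Cases

open Cfsg Cfsg.Lie Module
open Cfsg.Agent.ChevalleyStructure.E6Min.Tables Cfsg.Agent.ChevalleyStructure.E6Min.Basic
  Cfsg.Agent.ChevalleyStructure.E6Min.Adjoint
open Cfsg.Agent.H882.E6Big

universe u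

variable {F : Type u} [Field F] [Finite F] {H : Subgroup ↥(chevE6.group F)} {n : ℕ}

/-- characteristic 2, degrees 9 to 12 -/
theorem big_two_ge [CharP F 2] (hn : 9 ≤ n) (hn' : n ≤ 12) {φ : ↥(alternatingGroup (Fin n)) →* ↥(chevE6.group F)}
    (hS : Sit H n φ) {ψ : ↥(alternatingGroup (Fin n)) →* ↥(Zgrp F)} (hψ : Lift φ ψ) : False := by
  obtain ⟨h1, h2⟩ := hS.no_fixed ψ hψ
  obtain rfl | rfl | rfl | rfl : n = 9 ∨ n = 10 ∨ n = 11 ∨ n = 12 := by omega
  · exact nine_false two_eq_zero (pd_lift ψ) (num_V hS.inj hψ) h1 h2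
  · exact ten_false two_eq_zero (pd_lift ψ) (num_V hS.inj hψ) h1 h2
  · have := eleven (pd_lift ψ) (num_V hS.inj hψ)
    rw [h1, h2, finrank_bot] at this
    omega
  · exact twelve_false two_eq_zero (pd_lift ψ) h1 h2 (num_V hS.inj hψ) (num_V' hS.inj hψ)

end Cfsg.Agent.H163.E6.Cases
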