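import Cfsg.Agent.H882.E6Five
import Cfsg.Agent.H944.E6Tab
import Cfsg.Agent.H163.E6.Sit
import Cfsg.Agent.H16.E6.Cov

/-!
# S5927, S5928: `A₅` in characteristic 3 and `≥ 7` (helper882)

`E6Five.key` with `Sit`: a totally singular stable 3-dimensional subspace over `F`, or over the quadratic extension.
-/

set_option autoImplicit false

namespace Cfsg.Agent.H163.E6.Cases

open Cfsg Cfsg.Lie Module
open Cfsg.Agent.ChevalleyStructure.E6Min.Tables Cfsg.Agent.ChevalleyStructure.E6Min.Basic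
  Cfsg.Agent.ChevalleyStructure.E6Min.Adjoint
open Cfsg.Agent.H952.F4 (ev es matRep sh cr tf MaxAlt)
open Cfsg.Agent.H882.E6Five (key inv_ext inv_ext' exists_root)

universe u

variable {F : Type u} [Field F] [Finite F] {H : Subgroup ↥(chevE6.group F)}

omit [Finite F] in
/-- elements with the same image in the Chevalley group differ by a scalar matrix -/
theorem eq_smul_of_ad {g h : ↥(Zgrp F)} (hgh : ad F g = ad F h) : ∃ c : F,
    ((g : GL I27 F) : Matrix I27 I27 F) = c • ((h : GL I27 F) : Matrix I27 I27 F) := by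
  have h1 : ad F (g * h⁻¹) = 1 := by rw [map_mul, map_inv, hgh, mul_inv_cancel]
  obtain ⟨c, -, hc⟩ := (Act.ad_eq_one_iff (g * h⁻¹)).1 h1
  refine ⟨c, ?_⟩
  have h2 : (g : GL I27 F) = scal c * (h : GL I27 F) := by
    rw [← hc]
    push_cast
    group
  rw [h2, Units.val_mul, Act.coe_scal, smul_mul_assoc, one_mul]

/-- `A₅` in characteristic 3 and at least 7 -/
theorem five_odd (p : ℕ) [hpf : Fact p.Prime] [CharP F p] (hp : p = 3 ∨ 7 ≤ p)
    {φ : ↥(alternatingGroup (Fin 5)) →* ↥(chevE6.group F)} (hS : Sit H 5 φ) : False := by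
  obtain ⟨ψ, hψ⟩ : ∃ ψ : ↥(alternatingGroup (Fin 5)) →* ↥(Zgrp F), Lift φ ψ := by
    rcases Cov.exists_lift le_rfl hS.inj with h | ⟨h, -⟩
    · exact h
    · omega
  obtain ⟨h1, h2⟩ := hS.no_fixed ψ hψ
  have p2 : p ≠ 2 := by omega
  have two_ne : (2 : F) ≠ 0 := by
    intro h
    have h' : ((2 : ℕ) : F) = 0 := by exact_mod_cast h
    rw [CharP.cast_eq_zero_iff F p] at h'
    exact p2 ((Nat.prime_dvd_prime_iff_eq hpf.out Nat.prime_two).1 h')
  by_cases hr : ∃ t : F, t * t = t + 1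
  · obtain ⟨t, ht⟩ := hr
    obtain ⟨W, hW3, hW, hst⟩ := key p hp (Tor.tab p) (fun g => by rw [Act.ev_dual g one_ne_zero, inv_one])
      Act.sh_act Act.tf_act (fun g => (Act.ad_eq_one_iff g).1) ht ψ h1 h2
    refine hS.no_three (Or.inr two_ne) (V F) (Or.inl rfl) W ?_ hW3 hW
    rintro g ⟨a, ha⟩ w hw
    obtain ⟨c, hc⟩ := eq_smul_of_ad (g := g) (h := ψ a) (ha.symm.trans (hψ a).symm)
    rw [V_apply, hc, Matrix.smul_mulVec]
    exact W.smul_mem _ (hst a w hw)
  · rcases exists_root F p with h | ⟨E, _, _, _, f, hE, t, ht⟩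
    · exact hr h
    · push Not at hr
      obtain ⟨W, hW3, hW, hst⟩ := key p hp (Tor.tab p) (fun g => by rw [Act.ev_dual g one_ne_zero, inv_one])
        Act.sh_act Act.tf_act (fun g => (Act.ad_eq_one_iff g).1) ht ((H65.E6Emb.emb f).comp ψ)
        (inv_ext f _ (H65.E6Emb.V_emb f) ψ h1) (inv_ext' f _ (H65.E6Emb.V_emb f) ψ h2)
      refine hS.no_three_ext (Or.inr two_ne) hr E f hE (V E) (Or.inl rfl) W ?_ hW3 hW
      rintro g ⟨a, ha⟩ w hw
      obtain ⟨c, hc⟩ := eq_smul_of_ad (g := g) (h := ψ a) (ha.symm.trans (hψ a).symm)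
      have hc' : (((H65.E6Emb.emb f g : ↥(Zgrp E)) : GL I27 E) : Matrix I27 I27 E) =
          f c • (((H65.E6Emb.emb f (ψ a) : ↥(Zgrp E)) : GL I27 E) : Matrix I27 I27 E) := by
        rw [H65.E6Emb.coe_emb, H65.E6Emb.coe_emb, hc]
        ext i j
        rw [Matrix.map_apply, Matrix.smul_apply, Matrix.smul_apply, Matrix.map_apply, smul_eq_mul, smul_eq_mul,
          map_mul]
      rw [V_apply, hc', Matrix.smul_mulVec]
      exact W.smul_mem _ (hst a w hw)

theorem five_three [CharP F 3] {φ : ↥(alternatingGroup (Fin 5)) →* ↥(chevE6.group F)} (hS : Sit H 5 φ) : False := by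
  have : Fact (Nat.Prime 3) := ⟨Nat.prime_three⟩
  exact five_odd 3 (Or.inl rfl) hS

theorem five_big (p : ℕ) [Fact p.Prime] [CharP F p] (hp : 7 ≤ p)
    {φ : ↥(alternatingGroup (Fin 5)) →* ↥(chevE6.group F)} (hS : Sit H 5 φ) : False :=
  five_odd p (Or.inr hp) hS

end Cfsg.Agent.H163.E6.Cases
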